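import Mathlib
import Cfsg.Prelude.Def_Transfer
import Cfsg.Agent.Lib.Helper48.Generation

/-!
An elementary abelian group of order 8 of automorphisms of an odd `p`-group with few
non-cyclic fixed point subgroups (S4412).
-/

set_option autoImplicit false

namespace Cfsg.Agent.Lib.Helper21.E8

open Cfsg.Agent.Lib

section basic

variable {P : Type*} [Group P]

/-- The fixed points of `T` form a cyclic group. -/
def Nar (T : MulAut P) : Prop := ∃ g : P, ∀ x : P, (T x = x ↔ x ∈ Subgroup.zpowers g)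

/-- An involutory automorphism preserving a cyclic group of odd prime power order fixes or
inverts its generator. -/
theorem fix_or_inv {p : ℕ} (hp : p.Prime) (hp2 : p ≠ 2) (T : MulAut P) (hT : T * T = 1) (g : P)
    (hg : ∃ n, orderOf g = p ^ n) (hTg : T g ∈ Subgroup.zpowers g) : T g = g ∨ T g = g⁻¹ := by
  obtain ⟨k, hk⟩ := Subgroup.mem_zpowers_iff.mp hTg
  obtain ⟨n, hn⟩ := hg
  have h1 : g ^ (k * k) = g := by
    have h0 : T (T g) = g := by
      rw [← MulAut.mul_apply, hT]; rfl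
    rw [zpow_mul, hk, ← map_zpow, hk]
    exact h0
  have h2 : g ^ (k * k - 1) = 1 := by rw [zpow_sub, zpow_one, h1, mul_inv_cancel]
  have h3 : ((p : ℤ) ^ n) ∣ (k - 1) * (k + 1) := by
    have h4 : (orderOf g : ℤ) ∣ k * k - 1 := orderOf_dvd_iff_zpow_eq_one.mpr h2
    rw [hn] at h4
    have h5 : k * k - 1 = (k - 1) * (k + 1) := by ring
    rw [h5] at h4
    exact_mod_cast h4
  have hpI : Prime (p : ℤ) := Nat.prime_iff_prime_int.mp hp
  by_cases hd : (p : ℤ) ∣ k + 1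
  · right
    have hnd : ¬ (p : ℤ) ∣ k - 1 := by
      intro h
      have h6 : (p : ℤ) ∣ (k + 1) - (k - 1) := dvd_sub hd h
      have h7 : (k + 1) - (k - 1) = ((2 : ℕ) : ℤ) := by push_cast; ring
      rw [h7] at h6
      have h8 : p ∣ 2 := Int.natCast_dvd_natCast.mp h6
      exact hp2 ((Nat.prime_dvd_prime_iff_eq hp Nat.prime_two).mp h8)
    have h9 : (p : ℤ) ^ n ∣ k + 1 := hpI.pow_dvd_of_dvd_mul_left n hnd h3
    have h10 : g ^ (k + 1) = 1 := by
      apply orderOf_dvd_iff_zpow_eq_one.mp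
      rw [hn]; exact_mod_cast h9
    rw [← hk]
    rw [zpow_add, zpow_one] at h10
    exact eq_inv_of_mul_eq_one_left h10
  · left
    have h9 : (p : ℤ) ^ n ∣ k - 1 := hpI.pow_dvd_of_dvd_mul_right n hd h3
    have h10 : g ^ (k - 1) = 1 := by
      apply orderOf_dvd_iff_zpow_eq_one.mp
      rw [hn]; exact_mod_cast h9
    rw [← hk]
    rw [zpow_sub, zpow_one] at h10
    exact mul_inv_eq_one.mp h10

theorem fix_all_or_inv_all {p : ℕ} (hp : p.Prime) (hp2 : p ≠ 2) (T : MulAut P) (hT : T * T = 1)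
    (g : P) (hg : ∃ n, orderOf g = p ^ n) (hTg : T g ∈ Subgroup.zpowers g) :
    (∀ z ∈ Subgroup.zpowers g, T z = z) ∨ (∀ z ∈ Subgroup.zpowers g, T z = z⁻¹) := by
  rcases fix_or_inv hp hp2 T hT g hg hTg with h | h
  · left
    intro z hz
    obtain ⟨m, rfl⟩ := Subgroup.mem_zpowers_iff.mp hz
    rw [map_zpow, h]
  · right
    intro z hz
    obtain ⟨m, rfl⟩ := Subgroup.mem_zpowers_iff.mp hz
    rw [map_zpow, h, inv_zpow]

theorem eq_one_of_eq_inv {p : ℕ} (hp : p.Prime) (hp2 : p ≠ 2) {z : P}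
    (hz : ∃ n, orderOf z = p ^ n) (h : z = z⁻¹) : z = 1 := by
  obtain ⟨n, hn⟩ := hz
  have h1 : z ^ 2 = 1 := by
    calc z ^ 2 = z * z := pow_two z
      _ = z * z⁻¹ := by rw [← h]
      _ = 1 := mul_inv_cancel z
  have h2 : orderOf z ∣ 2 := orderOf_dvd_of_pow_eq_one h1
  rw [hn] at h2
  rcases Nat.eq_zero_or_pos n with h0 | hpos
  · rw [h0, pow_zero] at hn
    exact orderOf_eq_one_iff.mp hn
  · exfalso
    have h3 : p ∣ 2 := (dvd_pow_self p hpos.ne').trans h2
    exact hp2 ((Nat.prime_dvd_prime_iff_eq hp Nat.prime_two).mp h3)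

/-- A criterion for a fixed point subgroup not to be cyclic. -/
theorem broad_of {p : ℕ} (hp : p.Prime) (hp2 : p ≠ 2) (hord : ∀ z : P, ∃ n, orderOf z = p ^ n)
    (T S : MulAut P) (hc : T * S = S * T) (hS : S * S = 1) (x y : P) (hTx : T x = x)
    (hTy : T y = y) (hSx : S x ≠ x) (hSy : S y = y) (hy : y ≠ 1) : ¬ Nar T := by
  rintro ⟨h, hh⟩
  have hx' : x ∈ Subgroup.zpowers h := (hh x).mp hTx
  have hy' : y ∈ Subgroup.zpowers h := (hh y).mp hTy
  have hSh : S h ∈ Subgroup.zpowers h := by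
    rw [← hh]
    rw [← MulAut.mul_apply, hc, MulAut.mul_apply]
    congr 1
    exact (hh h).mpr (Subgroup.mem_zpowers h)
  rcases fix_all_or_inv_all hp hp2 S hS h (hord h) hSh with h1 | h1
  · exact hSx (h1 x hx')
  · have h2 := h1 y hy'
    rw [hSy] at h2
    exact hy (eq_one_of_eq_inv hp hp2 (hord y) h2)

/-- If `σ` has cyclic fixed points, among them `g` which `e` moves, then `σ` and `e` have no
common fixed point. -/
theorem fix_inter {p : ℕ} (hp : p.Prime) (hp2 : p ≠ 2) (hord : ∀ z : P, ∃ n, orderOf z = p ^ n)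
    (σ e : MulAut P) (hc : σ * e = e * σ) (he : e * e = 1) (hnar : Nar σ) (g : P)
    (hσg : σ g = g) (heg : e g ≠ g) : ∀ z, σ z = z → e z = z → z = 1 := by
  obtain ⟨h, hh⟩ := hnar
  have hg' : g ∈ Subgroup.zpowers h := (hh g).mp hσg
  have heh : e h ∈ Subgroup.zpowers h := by
    rw [← hh]
    rw [← MulAut.mul_apply, hc, MulAut.mul_apply]
    congr 1
    exact (hh h).mpr (Subgroup.mem_zpowers h)
  rcases fix_all_or_inv_all hp hp2 e he h (hord h) heh with h1 | h1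
  · exact absurd (h1 g hg') heg
  · intro z hσz hez
    have h2 := h1 z ((hh z).mp hσz)
    rw [hez] at h2
    exact eq_one_of_eq_inv hp hp2 (hord z) h2

/-- A fixed point free involutory automorphism of a finite subgroup inverts it. -/
theorem inv_of_fpf [Finite P] (σ : MulAut P) (hσ : σ * σ = 1) (Q : Subgroup P)
    (hQ : ∀ x ∈ Q, σ x ∈ Q) (hfix : ∀ x ∈ Q, σ x = x → x = 1) : ∀ x ∈ Q, σ x = x⁻¹ := by
  let f : Q → Q := fun y => ⟨(y : P)⁻¹ * σ y, Q.mul_mem (Q.inv_mem y.2) (hQ y y.2)⟩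
  have hinj : Function.Injective f := by
    intro y z hyz
    have h1 : (y : P)⁻¹ * σ y = (z : P)⁻¹ * σ z := congrArg Subtype.val hyz
    have h2 : σ ((z : P) * (y : P)⁻¹) = (z : P) * (y : P)⁻¹ := by
      rw [map_mul, map_inv]
      have h3 : σ (z : P) = (z : P) * ((y : P)⁻¹ * σ y) := by rw [h1, mul_inv_cancel_left]
      rw [h3]
      group
    have h4 := hfix _ (Q.mul_mem z.2 (Q.inv_mem y.2)) h2
    exact Subtype.ext (mul_inv_eq_one.mp h4).symm
  have hsurj : Function.Surjective f := Finite.injective_iff_surjective.mp hinj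
  intro x hx
  obtain ⟨y, hy⟩ := hsurj ⟨x, hx⟩
  have h1 : (y : P)⁻¹ * σ y = x := congrArg Subtype.val hy
  have h0 : σ (σ (y : P)) = y := by
    rw [← MulAut.mul_apply, hσ]; rfl
  rw [← h1, map_mul, map_inv, h0]
  group

/-- Two elements fixed by `e` and inverted by `σ` commute, if `σ` and `e` have no common fixed
point. -/
theorem pair_comm [Finite P] (e σ : MulAut P) (hσ : σ * σ = 1) (x y : P) (hex : e x = x)
    (hey : e y = y) (hσx : σ x = x⁻¹) (hσy : σ y = y⁻¹)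
    (hfix : ∀ z, σ z = z → e z = z → z = 1) : x * y = y * x := by
  have hxQ : x ∈ Subgroup.closure ({x, y} : Set P) := Subgroup.subset_closure (by simp)
  have hyQ : y ∈ Subgroup.closure ({x, y} : Set P) := Subgroup.subset_closure (by simp)
  have hQe : ∀ z ∈ Subgroup.closure ({x, y} : Set P), e z = z := by
    intro z hz
    induction hz using Subgroup.closure_induction with
    | mem z hz =>
      rcases hz with rfl | rfl
      · exact hex
      · exact hey
    | one => exact map_one e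
    | mul a b _ _ ha hb => rw [map_mul, ha, hb]
    | inv a _ ha => rw [map_inv, ha]
  have hQσ : ∀ z ∈ Subgroup.closure ({x, y} : Set P), σ z ∈ Subgroup.closure ({x, y} : Set P) := by
    intro z hz
    induction hz using Subgroup.closure_induction with
    | mem z hz =>
      rcases hz with rfl | rfl
      · rw [hσx]; exact Subgroup.inv_mem _ hxQ
      · rw [hσy]; exact Subgroup.inv_mem _ hyQ
    | one => rw [map_one]; exact Subgroup.one_mem _
    | mul a b _ _ ha hb => rw [map_mul]; exact Subgroup.mul_mem _ ha hb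
    | inv a _ ha => rw [map_inv]; exact Subgroup.inv_mem _ ha
  have hinv := inv_of_fpf σ hσ (Subgroup.closure ({x, y} : Set P)) hQσ
    (fun z hz hσz => hfix z hσz (hQe z hz))
  have h1 := hinv (x * y) (Subgroup.mul_mem _ hxQ hyQ)
  rw [map_mul, hσx, hσy, mul_inv_rev] at h1
  have h2 : (x⁻¹ * y⁻¹)⁻¹ = (y⁻¹ * x⁻¹)⁻¹ := by rw [h1]
  rw [mul_inv_rev, mul_inv_rev, inv_inv, inv_inv] at h2
  exact h2.symm

end basic

section choose

theorem exists_mem_notMem {M : Type*} [Group M] (I : Subgroup M) (hI8 : Nat.card I = 8)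
    (S : Finset M) (hS : S.card < 8) : ∃ a ∈ I, a ∉ S := by
  by_contra hno
  push Not at hno
  have h1 : (I : Set M) ⊆ (S : Set M) := fun a ha => Finset.mem_coe.mpr (hno a ha)
  have h2 : (I : Set M).ncard ≤ (S : Set M).ncard := Set.ncard_le_ncard h1 S.finite_toSet
  rw [Set.ncard_coe_finset] at h2
  have h3 : (I : Set M).ncard = 8 := by rw [← hI8]; rfl
  omega

/-- There are two elements generating a four-group all of whose non-identity elements are
"narrow". -/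
theorem exists_narrow_pair {M : Type*} [Group M] (I I₀ : Subgroup M) (hsq : ∀ T ∈ I, T * T = 1)
    (hI8 : Nat.card I = 8) (hI₀ : I₀ ≤ I) (nar : M → Prop) (hdisj : ∀ T ∈ I₀, T ≠ 1 → nar T)
    (hprod : ∀ T ∈ I, ∀ T' ∈ I, T ≠ 1 → T' ≠ 1 → ¬ nar T → ¬ nar T' → T * T' ∈ I₀) :
    ∃ a ∈ I, ∃ b ∈ I, a ≠ 1 ∧ b ≠ 1 ∧ a * b ≠ 1 ∧ nar a ∧ nar b ∧ nar (a * b) := by
  classical
  have hinv : ∀ T ∈ I, T⁻¹ = T := fun T hT => inv_eq_of_mul_eq_one_left (hsq T hT)
  by_cases hB : ∃ T₁ ∈ I, T₁ ≠ 1 ∧ ¬ nar T₁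
  · obtain ⟨T₁, hT₁, hT₁1, hT₁n⟩ := hB
    by_cases hB1 : ∃ a ∈ I₀, ∃ b ∈ I₀, a ≠ 1 ∧ b ≠ 1 ∧ a ≠ b
    · obtain ⟨a, ha, b, hb, ha1, hb1, hab⟩ := hB1
      have hab1 : a * b ≠ 1 := by
        intro h
        apply hab
        have h1 := eq_inv_of_mul_eq_one_left h
        rw [h1, hinv b (hI₀ hb)]
      exact ⟨a, hI₀ ha, b, hI₀ hb, ha1, hb1, hab1, hdisj a ha ha1, hdisj b hb hb1,
        hdisj _ (I₀.mul_mem ha hb) hab1⟩
    · push Not at hB1
      obtain ⟨s, hs, hs'⟩ : ∃ s ∈ I, ∀ t ∈ I₀, t = 1 ∨ t = s := by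
        by_cases h : ∃ s ∈ I₀, s ≠ 1
        · obtain ⟨s, hs, hs1⟩ := h
          refine ⟨s, hI₀ hs, fun t ht => ?_⟩
          by_cases ht1 : t = 1
          · exact Or.inl ht1
          · exact Or.inr (hB1 t ht s hs ht1 hs1)
        · push Not at h
          exact ⟨1, I.one_mem, fun t ht => Or.inl (h t ht)⟩
      have hbroad : ∀ T ∈ I, T ≠ 1 → ¬ nar T → T = T₁ ∨ T = T₁ * s := by
        intro T hT hT1 hTn
        have h1 := hprod T₁ hT₁ T hT hT₁1 hT1 hT₁n hTn
        have h2 : T = T₁ * (T₁ * T) := by rw [← mul_assoc, hsq T₁ hT₁, one_mul]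
        rcases hs' _ h1 with h3 | h3
        · left; rw [h2, h3, mul_one]
        · right; rw [h2, h3]
      obtain ⟨a, ha, haS⟩ := exists_mem_notMem I hI8 {1, T₁, T₁ * s}
        (lt_of_le_of_lt Finset.card_le_three (by norm_num))
      obtain ⟨b, hb, hbS⟩ := exists_mem_notMem I hI8 {1, a, T₁, T₁ * s, a * T₁, a * (T₁ * s)}
        (lt_of_le_of_lt Finset.card_le_six (by norm_num))
      simp only [Finset.mem_insert, Finset.mem_singleton, not_or] at haS hbS
      obtain ⟨ha1, ha2, ha3⟩ := haS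
      obtain ⟨hb1, hb2, hb3, hb4, hb5, hb6⟩ := hbS
      have hab1 : a * b ≠ 1 := by
        intro h
        apply hb2
        have h1 := eq_inv_of_mul_eq_one_right h
        rw [h1, hinv a ha]
      have hmul : ∀ c, a * b = c → b = a * c := by
        intro c hc
        rw [← hc, ← mul_assoc, hsq a ha, one_mul]
      refine ⟨a, ha, b, hb, ha1, hb1, hab1, ?_, ?_, ?_⟩
      · by_contra hn
        rcases hbroad a ha ha1 hn with h | h
        · exact ha2 h
        · exact ha3 h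
      · by_contra hn
        rcases hbroad b hb hb1 hn with h | h
        · exact hb3 h
        · exact hb4 h
      · by_contra hn
        rcases hbroad _ (I.mul_mem ha hb) hab1 hn with h | h
        · exact hb5 (hmul _ h)
        · exact hb6 (hmul _ h)
  · push Not at hB
    obtain ⟨a, ha, haS⟩ := exists_mem_notMem I hI8 {1} (by simp)
    obtain ⟨b, hb, hbS⟩ := exists_mem_notMem I hI8 {1, a}
      (lt_of_le_of_lt Finset.card_le_two (by norm_num))
    simp only [Finset.mem_insert, Finset.mem_singleton, not_or] at haS hbS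
    obtain ⟨hb1, hb2⟩ := hbS
    have hab1 : a * b ≠ 1 := by
      intro h
      apply hb2
      have h1 := eq_inv_of_mul_eq_one_right h
      rw [h1, hinv a ha]
    exact ⟨a, ha, b, hb, haS, hb1, hab1, hB a ha haS, hB b hb hb1, hB _ (I.mul_mem ha hb) hab1⟩

end choose

section gen

variable {P : Type*} [Group P] [Finite P]

/-- Generation of an odd `p`-group by the fixed points of a four-group of automorphisms. -/
theorem three_gen {p : ℕ} (hp : p.Prime) (hp2 : p ≠ 2) (hP : IsPGroup p P)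
    (a b : MulAut P) (ha : a * a = 1) (hb : b * b = 1) (hab : a * b = b * a) (g₁ g₂ g₃ : P)
    (h₁ : ∀ x, a x = x ↔ x ∈ Subgroup.zpowers g₁) (h₂ : ∀ x, b x = x ↔ x ∈ Subgroup.zpowers g₂)
    (h₃ : ∀ x, (a * b) x = x ↔ x ∈ Subgroup.zpowers g₃) :
    Subgroup.closure ({g₁, g₂, g₃} : Set P) = ⊤ := by
  haveI : Fact (Nat.Prime 2) := ⟨Nat.prime_two⟩
  haveI : Fact p.Prime := ⟨hp⟩
  haveI : Group.IsNilpotent P := hP.isNilpotent
  have hodd : ¬ 2 ∣ Nat.card P := by
    obtain ⟨n, hn⟩ := IsPGroup.iff_card.mp hP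
    rw [hn]
    intro h
    have h1 := Nat.Prime.dvd_of_dvd_pow Nat.prime_two h
    exact hp2 ((Nat.prime_dvd_prime_iff_eq Nat.prime_two hp).mp h1).symm
  have hgen := Helper48.nilpotent_generation hodd a b hab (by rw [pow_two]; exact ha)
    (by rw [pow_two]; exact hb)
  rw [eq_top_iff, ← hgen]
  have hg₁ : g₁ ∈ Subgroup.closure ({g₁, g₂, g₃} : Set P) := Subgroup.subset_closure (by simp)
  have hg₂ : g₂ ∈ Subgroup.closure ({g₁, g₂, g₃} : Set P) := Subgroup.subset_closure (by simp)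
  have hg₃ : g₃ ∈ Subgroup.closure ({g₁, g₂, g₃} : Set P) := Subgroup.subset_closure (by simp)
  apply sup_le
  · intro x hx
    exact (Subgroup.zpowers_le.mpr hg₂) ((h₂ x).mp ((Helper48.mem_fixSubgroup b x).mp hx))
  · apply iSup_le
    intro i x hx
    rw [Helper48.mem_fixSubgroup] at hx
    rcases Nat.even_or_odd i with ⟨m, hm⟩ | ⟨m, hm⟩
    · have hbi : b ^ i = 1 := by rw [hm, ← two_mul, pow_mul, pow_two, hb, one_pow]
      rw [hbi, mul_one] at hx
      exact (Subgroup.zpowers_le.mpr hg₁) ((h₁ x).mp hx)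
    · have hbi : b ^ i = b := by rw [hm, pow_succ, pow_mul, pow_two, hb, one_pow, one_mul]
      rw [hbi] at hx
      exact (Subgroup.zpowers_le.mpr hg₃) ((h₃ x).mp hx)

end gen

section twogen

/-- A finite abelian group containing three independent elements of order `p` is not generated
by two elements. -/
theorem not_two_gen {A : Type*} [CommGroup A] [Finite A] {p : ℕ} (hp : p.Prime) (k₁ k₂ k₃ : A)
    (ho₁ : orderOf k₁ = p) (ho₂ : orderOf k₂ = p) (ho₃ : orderOf k₃ = p)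
    (hind : ∀ u ∈ Subgroup.zpowers k₁, ∀ v ∈ Subgroup.zpowers k₂, ∀ w ∈ Subgroup.zpowers k₃,
      u * v * w = 1 → u = 1 ∧ v = 1 ∧ w = 1) :
    ¬ ∃ x y : A, Subgroup.closure ({x, y} : Set A) = ⊤ := by
  rintro ⟨x, y, hxy⟩
  have hppos : 0 < p := hp.pos
  have hpZ : (0 : ℤ) < (p : ℤ) := by exact_mod_cast hppos
  have h1 : Nat.card (powMonoidHom p : A →* A).ker * Nat.card (powMonoidHom p : A →* A).range =
      Nat.card A := by
    rw [← Subgroup.index_ker (powMonoidHom p : A →* A)]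
    exact Subgroup.card_mul_index _
  have h2 : Nat.card A ≤ p * p * Nat.card (powMonoidHom p : A →* A).range := by
    have hc : Nat.card (Fin p × Fin p × (powMonoidHom p : A →* A).range) =
        p * p * Nat.card (powMonoidHom p : A →* A).range := by
      rw [Nat.card_prod, Nat.card_prod, Nat.card_fin, mul_assoc]
    rw [← hc]
    let s : Fin p × Fin p × (powMonoidHom p : A →* A).range → A :=
      fun t => x ^ (t.1 : ℕ) * y ^ (t.2.1 : ℕ) * (t.2.2 : A)
    apply Nat.card_le_card_of_surjective s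
    intro z
    have hz : z ∈ Subgroup.closure ({x, y} : Set A) := by rw [hxy]; exact Subgroup.mem_top z
    obtain ⟨m, n, hmn⟩ := Subgroup.mem_closure_pair.mp hz
    have hm0 : 0 ≤ m % (p : ℤ) := Int.emod_nonneg m hpZ.ne'
    have hm1 : m % (p : ℤ) < p := Int.emod_lt_of_pos m hpZ
    have hn0 : 0 ≤ n % (p : ℤ) := Int.emod_nonneg n hpZ.ne'
    have hn1 : n % (p : ℤ) < p := Int.emod_lt_of_pos n hpZ
    have key : ∀ (w : A) (j : ℤ), w ^ j = w ^ (j % (p : ℤ)).toNat * (w ^ (j / (p : ℤ))) ^ p := by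
      intro w j
      have hj0 : 0 ≤ j % (p : ℤ) := Int.emod_nonneg j hpZ.ne'
      conv_lhs => rw [← Int.emod_add_mul_ediv j p]
      rw [zpow_add, ← zpow_natCast w (j % (p : ℤ)).toNat, Int.toNat_of_nonneg hj0, zpow_mul',
        zpow_natCast]
    refine ⟨(⟨(m % (p : ℤ)).toNat, by omega⟩, ⟨(n % (p : ℤ)).toNat, by omega⟩,
      ⟨(x ^ (m / (p : ℤ)) * y ^ (n / (p : ℤ))) ^ p, ⟨x ^ (m / (p : ℤ)) * y ^ (n / (p : ℤ)), rfl⟩⟩), ?_⟩
    show x ^ (m % (p : ℤ)).toNat * y ^ (n % (p : ℤ)).toNat *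
      (x ^ (m / (p : ℤ)) * y ^ (n / (p : ℤ))) ^ p = z
    rw [← hmn, key x m, key y n, mul_pow]
    exact mul_mul_mul_comm _ _ _ _
  have h3 : p * p * p ≤ Nat.card (powMonoidHom p : A →* A).ker := by
    have hc : ∀ k : A, orderOf k = p → Nat.card (Subgroup.zpowers k) = p :=
      fun k hk => by rw [Nat.card_zpowers, hk]
    have hcard : Nat.card (Subgroup.zpowers k₁ × Subgroup.zpowers k₂ × Subgroup.zpowers k₃) =
        p * p * p := by
      rw [Nat.card_prod, Nat.card_prod, hc k₁ ho₁, hc k₂ ho₂, hc k₃ ho₃, mul_assoc]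
    rw [← hcard]
    have hker : ∀ k : A, orderOf k = p → ∀ u ∈ Subgroup.zpowers k, u ^ p = 1 := by
      intro k hk u hu
      obtain ⟨m, rfl⟩ := Subgroup.mem_zpowers_iff.mp hu
      rw [← zpow_natCast, ← zpow_mul, mul_comm, zpow_mul, zpow_natCast, ← hk, pow_orderOf_eq_one,
        one_zpow]
    let s : Subgroup.zpowers k₁ × Subgroup.zpowers k₂ × Subgroup.zpowers k₃ →
        (powMonoidHom p : A →* A).ker := fun t =>
      ⟨(t.1 : A) * (t.2.1 : A) * (t.2.2 : A), by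
        rw [MonoidHom.mem_ker, powMonoidHom_apply, mul_pow, mul_pow, hker k₁ ho₁ _ t.1.2,
          hker k₂ ho₂ _ t.2.1.2, hker k₃ ho₃ _ t.2.2.2, one_mul, one_mul]⟩
    apply Nat.card_le_card_of_injective s
    rintro ⟨u, v, w⟩ ⟨u', v', w'⟩ h
    have h' : (u : A) * v * w = u' * v' * w' := congrArg Subtype.val h
    have h4 : ((u : A) * (u' : A)⁻¹) * ((v : A) * (v' : A)⁻¹) * ((w : A) * (w' : A)⁻¹) = 1 := by
      have h5 : ((u : A) * (u' : A)⁻¹) * ((v : A) * (v' : A)⁻¹) * ((w : A) * (w' : A)⁻¹) =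
          ((u : A) * v * w) * ((u' : A) * v' * w')⁻¹ := by
        rw [mul_inv, mul_inv]
        ac_rfl
      rw [h5, h', mul_inv_cancel]
    obtain ⟨hu, hv, hw⟩ := hind _ (Subgroup.mul_mem _ u.2 (Subgroup.inv_mem _ u'.2))
      _ (Subgroup.mul_mem _ v.2 (Subgroup.inv_mem _ v'.2))
      _ (Subgroup.mul_mem _ w.2 (Subgroup.inv_mem _ w'.2)) h4
    have eu : u = u' := Subtype.ext (mul_inv_eq_one.mp hu)
    have ev : v = v' := Subtype.ext (mul_inv_eq_one.mp hv)
    have ew : w = w' := Subtype.ext (mul_inv_eq_one.mp hw)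
    rw [eu, ev, ew]
  have hr : 0 < Nat.card (powMonoidHom p : A →* A).range := Nat.card_pos
  have h5 : p * p * p * Nat.card (powMonoidHom p : A →* A).range ≤
      p * p * Nat.card (powMonoidHom p : A →* A).range := by
    calc p * p * p * Nat.card (powMonoidHom p : A →* A).range
        ≤ Nat.card (powMonoidHom p : A →* A).ker * Nat.card (powMonoidHom p : A →* A).range :=
          Nat.mul_le_mul_right _ h3
      _ = Nat.card A := h1
      _ ≤ _ := h2
  have h6 : p * p * p ≤ p * p := Nat.le_of_mul_le_mul_right h5 hr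
  have hp2' := hp.two_le
  nlinarith

end twogen

section main

variable {P : Type*} [Group P] [Finite P]

theorem main (p : ℕ) (hp : p.Prime) (hp2 : p ≠ 2) (hP : IsPGroup p P)
    (I : Subgroup (MulAut P)) (hI : Cfsg.IsElementaryAbelian 2 I) (hI8 : Nat.card ↥I = 8)
    (I₀ : Subgroup (MulAut P)) (hI₀ : I₀ ≤ I)
    (hdisj : ∀ T ∈ I₀, T ≠ 1 → Nar T)
    (hprod : ∀ T ∈ I, ∀ T' ∈ I, T ≠ 1 → T' ≠ 1 → ¬ Nar T → ¬ Nar T' → T * T' ∈ I₀) :
    (∀ x y : P, x * y = y * x) ∧ (∃ a b c : P, Subgroup.closure ({a, b, c} : Set P) = ⊤) ∧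
    (¬ ∃ a b : P, Subgroup.closure ({a, b} : Set P) = ⊤) ∧
    ∃ e₁ e₂ e₃ : MulAut P, e₁ ≠ e₂ ∧ e₁ ≠ e₃ ∧ e₂ ≠ e₃ ∧
      {T : MulAut P | T ∈ I ∧ T ≠ 1 ∧ ¬ Nar T} = {e₁, e₂, e₃} ∧
      Subgroup.closure ({e₁, e₂, e₃} : Set (MulAut P)) = I ∧
      (I₀ : Set (MulAut P)) = {S : MulAut P | ∃ T T' : MulAut P, T ∈ I ∧ T' ∈ I ∧ T ≠ 1 ∧ T' ≠ 1 ∧
        ¬ Nar T ∧ ¬ Nar T' ∧ S = T * T'} := by
  classical
  haveI : Fact p.Prime := ⟨hp⟩
  have hord : ∀ z : P, ∃ n, orderOf z = p ^ n := IsPGroup.iff_orderOf.mp hP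
  have hsq : ∀ T ∈ I, T * T = 1 := fun T hT => by rw [← pow_two]; exact hI.2 T hT
  have hinvI : ∀ T ∈ I, T⁻¹ = T := fun T hT => inv_eq_of_mul_eq_one_left (hsq T hT)
  have hcomm : ∀ T ∈ I, ∀ T' ∈ I, T * T' = T' * T := by
    intro T hT T' hT'
    have h1 : (T * T')⁻¹ = T * T' := inv_eq_of_mul_eq_one_left (hsq _ (I.mul_mem hT hT'))
    rw [mul_inv_rev, hinvI T hT, hinvI T' hT'] at h1
    exact h1.symm
  obtain ⟨a, ha, b, hb, ha1, hb1, hab1, ⟨g₁, hg₁⟩, ⟨g₂, hg₂⟩, ⟨g₃, hg₃⟩⟩ :=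
    exists_narrow_pair I I₀ hsq hI8 hI₀ Nar hdisj hprod
  have hgen : Subgroup.closure ({g₁, g₂, g₃} : Set P) = ⊤ :=
    three_gen hp hp2 hP a b (hsq a ha) (hsq b hb) (hcomm a ha b hb) g₁ g₂ g₃ hg₁ hg₂ hg₃
  have hsign : ∀ T ∈ I, (T g₁ = g₁ ∨ T g₁ = g₁⁻¹) ∧ (T g₂ = g₂ ∨ T g₂ = g₂⁻¹) ∧
      (T g₃ = g₃ ∨ T g₃ = g₃⁻¹) := by
    intro T hT
    have key : ∀ (u : MulAut P) (_ : u ∈ I) (g : P),
        (∀ x, u x = x ↔ x ∈ Subgroup.zpowers g) → T g = g ∨ T g = g⁻¹ := by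
      intro u hu g hg
      apply fix_or_inv hp hp2 T (hsq T hT) g (hord g)
      rw [← hg]
      rw [← MulAut.mul_apply, hcomm u hu T hT, MulAut.mul_apply]
      congr 1
      exact (hg g).mpr (Subgroup.mem_zpowers g)
    exact ⟨key a ha g₁ hg₁, key b hb g₂ hg₂, key (a * b) (I.mul_mem ha hb) g₃ hg₃⟩
  have hext : ∀ T ∈ I, ∀ T' ∈ I, T g₁ = T' g₁ → T g₂ = T' g₂ → T g₃ = T' g₃ → T = T' := by
    intro T _ T' _ h1 h2 h3
    have h4 : (T : P →* P) = (T' : P →* P) := by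
      apply MonoidHom.eq_of_eqOn_dense hgen
      intro x hx
      rcases hx with rfl | rfl | rfl
      · exact h1
      · exact h2
      · exact h3
    ext x
    exact DFunLike.congr_fun h4 x
  let Φ : I → Bool × Bool × Bool := fun T =>
    (decide ((T : MulAut P) g₁ = g₁), decide ((T : MulAut P) g₂ = g₂),
      decide ((T : MulAut P) g₃ = g₃))
  have hΦinj : Function.Injective Φ := by
    intro T T' h
    have h1 : decide ((T : MulAut P) g₁ = g₁) = decide ((T' : MulAut P) g₁ = g₁) :=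
      congrArg Prod.fst h
    have h2 : decide ((T : MulAut P) g₂ = g₂) = decide ((T' : MulAut P) g₂ = g₂) :=
      congrArg (fun t => t.2.1) h
    have h3 : decide ((T : MulAut P) g₃ = g₃) = decide ((T' : MulAut P) g₃ = g₃) :=
      congrArg (fun t => t.2.2) h
    have key : ∀ g : P, (T.1 g = g ∨ T.1 g = g⁻¹) → (T'.1 g = g ∨ T'.1 g = g⁻¹) →
        decide (T.1 g = g) = decide (T'.1 g = g) → T.1 g = T'.1 g := by
      intro g hT hT' hd
      have hiff : T.1 g = g ↔ T'.1 g = g := decide_eq_decide.mp hd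
      rcases hT with h | h
      · rw [h, hiff.mp h]
      · rcases hT' with h' | h'
        · rw [hiff.mpr h', h']
        · rw [h, h']
    obtain ⟨s1, s2, s3⟩ := hsign T.1 T.2
    obtain ⟨s1', s2', s3'⟩ := hsign T'.1 T'.2
    exact Subtype.ext (hext T.1 T.2 T'.1 T'.2 (key g₁ s1 s1' h1) (key g₂ s2 s2' h2)
      (key g₃ s3 s3' h3))
  have hΦbij : Function.Bijective Φ := hΦinj.bijective_of_nat_card_le (by
    rw [hI8, Nat.card_eq_fintype_card]; decide)
  obtain ⟨⟨e₁, he₁I⟩, he₁⟩ := hΦbij.2 (false, true, true)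
  obtain ⟨⟨e₂, he₂I⟩, he₂⟩ := hΦbij.2 (true, false, true)
  obtain ⟨⟨e₃, he₃I⟩, he₃⟩ := hΦbij.2 (true, true, false)
  have n11 : e₁ g₁ ≠ g₁ := of_decide_eq_false (congrArg Prod.fst he₁)
  have f12 : e₁ g₂ = g₂ := of_decide_eq_true (congrArg (fun t => t.2.1) he₁)
  have f13 : e₁ g₃ = g₃ := of_decide_eq_true (congrArg (fun t => t.2.2) he₁)
  have f21 : e₂ g₁ = g₁ := of_decide_eq_true (congrArg Prod.fst he₂)
  have n22 : e₂ g₂ ≠ g₂ := of_decide_eq_false (congrArg (fun t => t.2.1) he₂)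
  have f23 : e₂ g₃ = g₃ := of_decide_eq_true (congrArg (fun t => t.2.2) he₂)
  have f31 : e₃ g₁ = g₁ := of_decide_eq_true (congrArg Prod.fst he₃)
  have f32 : e₃ g₂ = g₂ := of_decide_eq_true (congrArg (fun t => t.2.1) he₃)
  have n33 : e₃ g₃ ≠ g₃ := of_decide_eq_false (congrArg (fun t => t.2.2) he₃)
  have f11 : e₁ g₁ = g₁⁻¹ := (hsign e₁ he₁I).1.resolve_left n11
  have f22 : e₂ g₂ = g₂⁻¹ := (hsign e₂ he₂I).2.1.resolve_left n22
  have f33 : e₃ g₃ = g₃⁻¹ := (hsign e₃ he₃I).2.2.resolve_left n33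
  have hg₁1 : g₁ ≠ 1 := by
    intro h
    apply n11
    rw [h, map_one]
  have hg₂1 : g₂ ≠ 1 := by
    intro h
    apply n22
    rw [h, map_one]
  have hg₃1 : g₃ ≠ 1 := by
    intro h
    apply n33
    rw [h, map_one]
  have he₁1 : e₁ ≠ 1 := by
    intro h
    apply n11
    rw [h]; rfl
  have he₂1 : e₂ ≠ 1 := by
    intro h
    apply n22
    rw [h]; rfl
  have he₃1 : e₃ ≠ 1 := by
    intro h
    apply n33
    rw [h]; rfl
  have hb₁ : ¬ Nar e₁ := broad_of hp hp2 hord e₁ e₂ (hcomm e₁ he₁I e₂ he₂I) (hsq e₂ he₂I) g₂ g₃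
    f12 f13 n22 f23 hg₃1
  have hb₂ : ¬ Nar e₂ := broad_of hp hp2 hord e₂ e₁ (hcomm e₂ he₂I e₁ he₁I) (hsq e₁ he₁I) g₁ g₃
    f21 f23 n11 f13 hg₃1
  have hb₃ : ¬ Nar e₃ := broad_of hp hp2 hord e₃ e₁ (hcomm e₃ he₃I e₁ he₁I) (hsq e₁ he₁I) g₁ g₂
    f31 f32 n11 f12 hg₂1
  have h12 : e₁ * e₂ ∈ I₀ := hprod e₁ he₁I e₂ he₂I he₁1 he₂1 hb₁ hb₂
  have h13 : e₁ * e₃ ∈ I₀ := hprod e₁ he₁I e₃ he₃I he₁1 he₃1 hb₁ hb₃
  have h23 : e₂ * e₃ ∈ I₀ := hprod e₂ he₂I e₃ he₃I he₂1 he₃1 hb₂ hb₃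
  have h12ne : e₁ * e₂ ≠ 1 := by
    intro h
    have h1 : (e₁ * e₂) g₁ = g₁ := by rw [h]; rfl
    rw [MulAut.mul_apply, f21] at h1
    exact n11 h1
  have h13ne : e₁ * e₃ ≠ 1 := by
    intro h
    have h1 : (e₁ * e₃) g₁ = g₁ := by rw [h]; rfl
    rw [MulAut.mul_apply, f31] at h1
    exact n11 h1
  have h23ne : e₂ * e₃ ≠ 1 := by
    intro h
    have h1 : (e₂ * e₃) g₂ = g₂ := by rw [h]; rfl
    rw [MulAut.mul_apply, f32] at h1
    exact n22 h1
  have n12 : Nar (e₁ * e₂) := hdisj _ h12 h12ne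
  have n13 : Nar (e₁ * e₃) := hdisj _ h13 h13ne
  have n23 : Nar (e₂ * e₃) := hdisj _ h23 h23ne
  -- the generators commute
  have c12 : g₁ * g₂ = g₂ * g₁ := by
    apply pair_comm e₃ (e₁ * e₂) (hsq _ (I.mul_mem he₁I he₂I)) g₁ g₂ f31 f32
    · rw [MulAut.mul_apply, f21, f11]
    · rw [MulAut.mul_apply, f22, map_inv, f12]
    · exact fix_inter hp hp2 hord (e₁ * e₂) e₃ (hcomm _ (I.mul_mem he₁I he₂I) e₃ he₃I)
        (hsq e₃ he₃I) n12 g₃ (by rw [MulAut.mul_apply, f23, f13]) n33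
  have c13 : g₁ * g₃ = g₃ * g₁ := by
    apply pair_comm e₂ (e₁ * e₃) (hsq _ (I.mul_mem he₁I he₃I)) g₁ g₃ f21 f23
    · rw [MulAut.mul_apply, f31, f11]
    · rw [MulAut.mul_apply, f33, map_inv, f13]
    · exact fix_inter hp hp2 hord (e₁ * e₃) e₂ (hcomm _ (I.mul_mem he₁I he₃I) e₂ he₂I)
        (hsq e₂ he₂I) n13 g₂ (by rw [MulAut.mul_apply, f32, f12]) n22
  have c23 : g₂ * g₃ = g₃ * g₂ := by
    apply pair_comm e₁ (e₂ * e₃) (hsq _ (I.mul_mem he₂I he₃I)) g₂ g₃ f12 f13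
    · rw [MulAut.mul_apply, f32, f22]
    · rw [MulAut.mul_apply, f33, map_inv, f23]
    · exact fix_inter hp hp2 hord (e₂ * e₃) e₁ (hcomm _ (I.mul_mem he₂I he₃I) e₁ he₁I)
        (hsq e₁ he₁I) n23 g₁ (by rw [MulAut.mul_apply, f31, f21]) n11
  have hPcomm : ∀ x y : P, x * y = y * x := by
    have hcen : ∀ g ∈ ({g₁, g₂, g₃} : Set P), g ∈ Subgroup.center P := by
      intro g hg
      have h1 : Subgroup.closure ({g₁, g₂, g₃} : Set P) ≤ Subgroup.centralizer {g} := by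
        rw [Subgroup.closure_le]
        intro y hy
        rw [SetLike.mem_coe, Subgroup.mem_centralizer_iff]
        intro z hz
        rw [Set.mem_singleton_iff] at hz
        subst hz
        rcases hg with rfl | rfl | rfl <;> rcases hy with rfl | rfl | rfl
        · rfl
        · exact c12
        · exact c13
        · exact c12.symm
        · rfl
        · exact c23
        · exact c13.symm
        · exact c23.symm
        · rfl
      rw [hgen] at h1
      rw [Subgroup.mem_center_iff]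
      intro y
      have h2 := h1 (Subgroup.mem_top y)
      rw [Subgroup.mem_centralizer_iff] at h2
      exact (h2 g rfl).symm
    have h2 : Subgroup.closure ({g₁, g₂, g₃} : Set P) ≤ Subgroup.center P :=
      (Subgroup.closure_le _).mpr hcen
    rw [hgen] at h2
    intro x y
    exact Subgroup.mem_center_iff.mp (h2 (Subgroup.mem_top y)) x
  -- classification of the elements of I
  have hclass : ∀ T ∈ I, T = 1 ∨ T = e₁ ∨ T = e₂ ∨ T = e₃ ∨ T = e₁ * e₂ ∨ T = e₁ * e₃ ∨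
      T = e₂ * e₃ ∨ T = e₁ * e₂ * e₃ := by
    intro T hT
    obtain ⟨s1, s2, s3⟩ := hsign T hT
    have mk : ∀ c ∈ I, T g₁ = c g₁ → T g₂ = c g₂ → T g₃ = c g₃ → T = c :=
      fun c hc => hext T hT c hc
    rcases s1 with h1 | h1 <;> rcases s2 with h2 | h2 <;> rcases s3 with h3 | h3
    · exact Or.inl (mk 1 I.one_mem (by simp [h1]) (by simp [h2]) (by simp [h3]))
    · exact Or.inr (Or.inr (Or.inr (Or.inl (mk e₃ he₃I (by rw [h1, f31]) (by rw [h2, f32])
        (by rw [h3, f33])))))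
    · exact Or.inr (Or.inr (Or.inl (mk e₂ he₂I (by rw [h1, f21]) (by rw [h2, f22])
        (by rw [h3, f23]))))
    · exact Or.inr (Or.inr (Or.inr (Or.inr (Or.inr (Or.inr (Or.inl (mk (e₂ * e₃)
        (I.mul_mem he₂I he₃I) (by rw [h1, MulAut.mul_apply, f31, f21])
        (by rw [h2, MulAut.mul_apply, f32, f22])
        (by rw [h3, MulAut.mul_apply, f33, map_inv, f23]))))))))
    · exact Or.inr (Or.inl (mk e₁ he₁I (by rw [h1, f11]) (by rw [h2, f12]) (by rw [h3, f13])))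
    · exact Or.inr (Or.inr (Or.inr (Or.inr (Or.inr (Or.inl (mk (e₁ * e₃)
        (I.mul_mem he₁I he₃I) (by rw [h1, MulAut.mul_apply, f31, f11])
        (by rw [h2, MulAut.mul_apply, f32, f12])
        (by rw [h3, MulAut.mul_apply, f33, map_inv, f13])))))))
    · exact Or.inr (Or.inr (Or.inr (Or.inr (Or.inl (mk (e₁ * e₂)
        (I.mul_mem he₁I he₂I) (by rw [h1, MulAut.mul_apply, f21, f11])
        (by rw [h2, MulAut.mul_apply, f22, map_inv, f12])
        (by rw [h3, MulAut.mul_apply, f23, f13]))))))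
    · exact Or.inr (Or.inr (Or.inr (Or.inr (Or.inr (Or.inr (Or.inr (mk (e₁ * e₂ * e₃)
        (I.mul_mem (I.mul_mem he₁I he₂I) he₃I)
        (by rw [h1, MulAut.mul_apply, MulAut.mul_apply, f31, f21, f11])
        (by rw [h2, MulAut.mul_apply, MulAut.mul_apply, f32, f22, map_inv, f12])
        (by rw [h3, MulAut.mul_apply, MulAut.mul_apply, f33, map_inv, map_inv, f23,
          f13]))))))))
  -- the product of the three inverts everything
  have hw : ∀ x : P, (e₁ * e₂ * e₃) x = x⁻¹ := by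
    intro x
    have hx : x ∈ Subgroup.closure ({g₁, g₂, g₃} : Set P) := by rw [hgen]; exact Subgroup.mem_top x
    induction hx using Subgroup.closure_induction with
    | mem z hz =>
      rcases hz with rfl | rfl | rfl
      · rw [MulAut.mul_apply, MulAut.mul_apply, f31, f21, f11]
      · rw [MulAut.mul_apply, MulAut.mul_apply, f32, f22, map_inv, f12]
      · rw [MulAut.mul_apply, MulAut.mul_apply, f33, map_inv, map_inv, f23, f13]
    | one => rw [map_one, inv_one]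
    | mul u v _ _ hu hv => rw [map_mul, hu, hv, mul_inv_rev, hPcomm]
    | inv u _ hu => rw [map_inv, hu]
  have hwnar : Nar (e₁ * e₂ * e₃) := by
    refine ⟨1, fun x => ?_⟩
    rw [Subgroup.zpowers_one_eq_bot, Subgroup.mem_bot, hw]
    constructor
    · intro h
      exact eq_one_of_eq_inv hp hp2 (hord x) h.symm
    · intro h
      rw [h, inv_one]
  -- elements of order p
  have hk : ∀ g : P, g ≠ 1 → ∃ k ∈ Subgroup.zpowers g, orderOf k = p := by
    intro g hg1
    obtain ⟨n, hn⟩ := hord g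
    have hn0 : n ≠ 0 := by
      rintro rfl
      rw [pow_zero] at hn
      exact hg1 (orderOf_eq_one_iff.mp hn)
    have hdvd : p ∣ Nat.card (Subgroup.zpowers g) := by
      rw [Nat.card_zpowers, hn]; exact dvd_pow_self p hn0
    obtain ⟨k, hk⟩ := exists_prime_orderOf_dvd_card' p hdvd
    exact ⟨k, k.2, by rw [Subgroup.orderOf_coe]; exact hk⟩
  obtain ⟨k₁, hk₁, ho₁⟩ := hk g₁ hg₁1
  obtain ⟨k₂, hk₂, ho₂⟩ := hk g₂ hg₂1
  obtain ⟨k₃, hk₃, ho₃⟩ := hk g₃ hg₃1
  have hact : ∀ (T : MulAut P) (g u : P), u ∈ Subgroup.zpowers g →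
      (T g = g → T u = u) ∧ (T g = g⁻¹ → T u = u⁻¹) := by
    intro T g u hu
    obtain ⟨m, rfl⟩ := Subgroup.mem_zpowers_iff.mp hu
    exact ⟨fun h => by rw [map_zpow, h], fun h => by rw [map_zpow, h, inv_zpow]⟩
  have hind : ∀ u ∈ Subgroup.zpowers k₁, ∀ v ∈ Subgroup.zpowers k₂, ∀ w ∈ Subgroup.zpowers k₃,
      u * v * w = 1 → u = 1 ∧ v = 1 ∧ w = 1 := by
    intro u hu v hv w hw' huvw
    have hu' : u ∈ Subgroup.zpowers g₁ := (Subgroup.zpowers_le.mpr hk₁) hu
    have hv' : v ∈ Subgroup.zpowers g₂ := (Subgroup.zpowers_le.mpr hk₂) hv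
    have hw'' : w ∈ Subgroup.zpowers g₃ := (Subgroup.zpowers_le.mpr hk₃) hw'
    refine ⟨?_, ?_, ?_⟩
    · have h1 : e₁ (u * v * w) = 1 := by rw [huvw, map_one]
      rw [map_mul, map_mul, (hact e₁ g₁ u hu').2 f11, (hact e₁ g₂ v hv').1 f12,
        (hact e₁ g₃ w hw'').1 f13, ← huvw] at h1
      have h2 : u⁻¹ = u := mul_right_cancel (mul_right_cancel h1)
      exact eq_one_of_eq_inv hp hp2 (hord u) h2.symm
    · have h1 : e₂ (u * v * w) = 1 := by rw [huvw, map_one]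
      rw [map_mul, map_mul, (hact e₂ g₁ u hu').1 f21, (hact e₂ g₂ v hv').2 f22,
        (hact e₂ g₃ w hw'').1 f23, ← huvw] at h1
      have h2 : v⁻¹ = v := mul_left_cancel (mul_right_cancel h1)
      exact eq_one_of_eq_inv hp hp2 (hord v) h2.symm
    · have h1 : e₃ (u * v * w) = 1 := by rw [huvw, map_one]
      rw [map_mul, map_mul, (hact e₃ g₁ u hu').1 f31, (hact e₃ g₂ v hv').1 f32,
        (hact e₃ g₃ w hw'').2 f33, ← huvw] at h1
      have h2 : w⁻¹ = w := mul_left_cancel h1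
      exact eq_one_of_eq_inv hp hp2 (hord w) h2.symm
  have h2gen : ¬ ∃ x y : P, Subgroup.closure ({x, y} : Set P) = ⊤ := by
    let inst : CommGroup P := { (inferInstance : Group P) with mul_comm := hPcomm }
    exact @not_two_gen P inst _ p hp k₁ k₂ k₃ ho₁ ho₂ ho₃ hind
  have hne12 : e₁ ≠ e₂ := by
    intro h
    apply n11
    rw [h]; exact f21
  have hne13 : e₁ ≠ e₃ := by
    intro h
    apply n11
    rw [h]; exact f31
  have hne23 : e₂ ≠ e₃ := by
    intro h
    apply n22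
    rw [h]; exact f32
  refine ⟨hPcomm, ⟨g₁, g₂, g₃, hgen⟩, h2gen, e₁, e₂, e₃, hne12, hne13, hne23, ?_, ?_, ?_⟩
  · ext T
    simp only [Set.mem_ofPred_eq, Set.mem_insert_iff, Set.mem_singleton_iff]
    constructor
    · rintro ⟨hT, hT1, hTn⟩
      rcases hclass T hT with h | h | h | h | h | h | h | h
      · exact absurd h hT1
      · exact Or.inl h
      · exact Or.inr (Or.inl h)
      · exact Or.inr (Or.inr h)
      · rw [h] at hTn; exact absurd n12 hTn
      · rw [h] at hTn; exact absurd n13 hTn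
      · rw [h] at hTn; exact absurd n23 hTn
      · rw [h] at hTn; exact absurd hwnar hTn
    · rintro (h | h | h)
      · rw [h]; exact ⟨he₁I, he₁1, hb₁⟩
      · rw [h]; exact ⟨he₂I, he₂1, hb₂⟩
      · rw [h]; exact ⟨he₃I, he₃1, hb₃⟩
  · apply le_antisymm
    · rw [Subgroup.closure_le]
      intro T hT
      rcases hT with rfl | rfl | rfl
      · exact he₁I
      · exact he₂I
      · exact he₃I
    · intro T hT
      have m1 : e₁ ∈ Subgroup.closure ({e₁, e₂, e₃} : Set (MulAut P)) :=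
        Subgroup.subset_closure (by simp)
      have m2 : e₂ ∈ Subgroup.closure ({e₁, e₂, e₃} : Set (MulAut P)) :=
        Subgroup.subset_closure (by simp)
      have m3 : e₃ ∈ Subgroup.closure ({e₁, e₂, e₃} : Set (MulAut P)) :=
        Subgroup.subset_closure (by simp)
      rcases hclass T hT with h | h | h | h | h | h | h | h <;> rw [h]
      · exact Subgroup.one_mem _
      · exact m1
      · exact m2
      · exact m3
      · exact Subgroup.mul_mem _ m1 m2
      · exact Subgroup.mul_mem _ m1 m3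
      · exact Subgroup.mul_mem _ m2 m3
      · exact Subgroup.mul_mem _ (Subgroup.mul_mem _ m1 m2) m3
  · ext S
    simp only [SetLike.mem_coe, Set.mem_ofPred_eq]
    constructor
    · intro hS
      rcases hclass S (hI₀ hS) with h | h | h | h | h | h | h | h
      · exact ⟨e₁, e₁, he₁I, he₁I, he₁1, he₁1, hb₁, hb₁, by rw [h, hsq e₁ he₁I]⟩
      · rw [h] at hS; exact absurd (hdisj e₁ hS he₁1) hb₁
      · rw [h] at hS; exact absurd (hdisj e₂ hS he₂1) hb₂
      · rw [h] at hS; exact absurd (hdisj e₃ hS he₃1) hb₃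
      · exact ⟨e₁, e₂, he₁I, he₂I, he₁1, he₂1, hb₁, hb₂, h⟩
      · exact ⟨e₁, e₃, he₁I, he₃I, he₁1, he₃1, hb₁, hb₃, h⟩
      · exact ⟨e₂, e₃, he₂I, he₃I, he₂1, he₃1, hb₂, hb₃, h⟩
      · exfalso
        rw [h] at hS
        have h1 : e₃ ∈ I₀ := by
          have h2 : e₃ = (e₁ * e₂)⁻¹ * (e₁ * e₂ * e₃) := by group
          rw [h2]
          exact I₀.mul_mem (I₀.inv_mem h12) hS
        exact hb₃ (hdisj e₃ h1 he₃1)
    · rintro ⟨T, T', hT, hT', hT1, hT'1, hTn, hT'n, rfl⟩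
      exact hprod T hT T' hT' hT1 hT'1 hTn hT'n

end main

end Cfsg.Agent.Lib.Helper21.E8
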