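import Mathlib
import Cfsg.Prelude.Def_Local
import Cfsg.Agent.Lib.Helper69.PSolvable
import Cfsg.Agent.Lib.Helper72.SylowCount
import Cfsg.Agent.Lib.Helper1.MixBase

/-!
# A `{p, q}`-subgroup over a Sylow `p`-subgroup (helper21, for S4411)

`hallPQ`: let `C` be a normal subgroup of the finite group `N` with `N ⧸ C` `p`-soluble and
`q ∣ [N : C]`, and let `P` be a Sylow `p`-subgroup of `N`. Then some `{p, q}`-subgroup `L ≥ P` has
`q ∣ [L : L ∩ C]`.
-/

set_option autoImplicit false

namespace Cfsg.Agent.Lib.Helper21.HPQ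

open Subgroup

universe u

/-- `L` is a `{p, q}`-group. -/
def IsPQ (p q : ℕ) {N : Type*} [Group N] (L : Subgroup N) : Prop :=
  ∀ r : ℕ, r.Prime → r ∣ Nat.card L → r = p ∨ r = q

/-- The first nontrivial term of a `p`-soluble chain (after `Cfsg.Agent.S3744`). -/
theorem exists_normal_of_psol {G : Type*} [Group G] [Nontrivial G] (q : ℕ)
    [Fact q.Prime] (h : Cfsg.IsPSolvable q G) :
    ∃ N : Subgroup G, N.Normal ∧ N ≠ ⊥ ∧ (IsPGroup q N ∨ (Nat.card N).Coprime q) := by
  obtain ⟨n, S, h0, hlast, hmono, hnorm, hfac⟩ := h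
  by_contra hcon
  have key : ∀ i : Fin (n + 1), S i = ⊥ := by
    intro i
    induction i using Fin.induction with
    | zero => exact h0
    | succ i ih =>
      by_contra hne
      have h1 := hfac i
      rw [ih, Subgroup.relIndex_bot_left] at h1
      apply hcon
      refine ⟨S i.succ, hnorm _, hne, ?_⟩
      rcases h1 with ⟨m, hm⟩ | hc
      · left
        exact IsPGroup.of_card hm
      · right
        exact hc
  have h2 := key (Fin.last n)
  rw [hlast] at h2
  exact top_ne_bot h2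

theorem relIndex_dvd_relIndex_of_le {N : Type*} [Group N] (C : Subgroup N) [C.Normal]
    {A B : Subgroup N} (hAB : A ≤ B) : C.relIndex A ∣ C.relIndex B := by
  rw [← Subgroup.relIndex_sup_right (H := A) (K := C),
    ← Subgroup.relIndex_sup_right (H := B) (K := C)]
  exact Dvd.intro _ (Subgroup.relIndex_mul_relIndex C (A ⊔ C) (B ⊔ C) le_sup_right
    (sup_le_sup_right hAB C))

theorem mem_map_conj {N : Type*} [Group N] (H : Subgroup N) (g x : N) :
    x ∈ H.map (MulAut.conj g).toMonoidHom ↔ g⁻¹ * x * g ∈ H := by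
  constructor
  · rintro ⟨a, ha, rfl⟩
    have : g⁻¹ * (MulAut.conj g).toMonoidHom a * g = a := by
      simp [MulAut.conj_apply, mul_assoc]
    rw [this]; exact ha
  · intro h
    refine ⟨g⁻¹ * x * g, h, ?_⟩
    simp [MulAut.conj_apply, mul_assoc]

theorem card_eq_relIndex_mul_card {N : Type*} [Group N] [Finite N] {A B : Subgroup N}
    (hAB : A ≤ B) : Nat.card B = A.relIndex B * Nat.card A := by
  have h1 : Nat.card (A.subgroupOf B) * (A.subgroupOf B).index = Nat.card B :=
    Subgroup.card_mul_index _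
  have h2 : Nat.card (A.subgroupOf B) = Nat.card A :=
    Nat.card_congr (Subgroup.subgroupOfEquivOfLe hAB).toEquiv
  rw [h2] at h1
  rw [← h1, mul_comm]
  rfl

/-- A `p`-subgroup normalizes some Sylow `q`-subgroup of a normal `p'`-subgroup. -/
theorem exists_invariant_sylow {N : Type*} [Group N] [Finite N] (p q : ℕ) [Fact p.Prime]
    [Fact q.Prime] (W : Subgroup N) [W.Normal] (hW : ¬ p ∣ Nat.card W) (P : Subgroup N)
    (hP : IsPGroup p P) :
    ∃ Q : Subgroup N, Q ≤ W ∧ P ≤ normalizer (Q : Set N) ∧ IsPGroup q Q ∧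
      ¬ q ∣ Q.relIndex W := by
  obtain ⟨Q₀⟩ : Nonempty (Sylow q W) := inferInstance
  have hF : normalizer (((Q₀ : Subgroup W).map W.subtype : Subgroup N) : Set N) ⊔ W = ⊤ :=
    Sylow.normalizer_sup_eq_top Q₀
  have hQ₁W : (Q₀ : Subgroup W).map W.subtype ≤ W := Subgroup.map_subtype_le _
  have hidx : (normalizer (((Q₀ : Subgroup W).map W.subtype : Subgroup N) : Set N)).index ∣
      Nat.card W := by
    have h1 := Cfsg.Agent.Lib.Helper72.relIndex_sup_normal
      (normalizer (((Q₀ : Subgroup W).map W.subtype : Subgroup N) : Set N)) W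
    rw [hF, Subgroup.relIndex_top_right] at h1
    rw [h1]
    exact Subgroup.relIndex_dvd_card _ _
  have hpidx : ¬ p ∣ Nat.card
      (N ⧸ normalizer (((Q₀ : Subgroup W).map W.subtype : Subgroup N) : Set N)) := by
    rw [← Subgroup.index_eq_card]
    exact fun h => hW (h.trans hidx)
  obtain ⟨c, hc⟩ := hP.nonempty_fixed_point_of_prime_not_dvd_card _ hpidx
  obtain ⟨g, rfl⟩ := QuotientGroup.mk_surjective c
  have hx : ∀ x ∈ P, g⁻¹ * x * g ∈
      normalizer (((Q₀ : Subgroup W).map W.subtype : Subgroup N) : Set N) := by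
    intro x hx
    have h1 := hc ⟨x, hx⟩
    have h2 : ((x * g : N) : N ⧸ normalizer (((Q₀ : Subgroup W).map W.subtype : Subgroup N) :
        Set N)) = (g : N ⧸ _) := h1
    rw [QuotientGroup.eq] at h2
    have h3 := Subgroup.inv_mem _ h2
    have h4 : ((x * g)⁻¹ * g)⁻¹ = g⁻¹ * x * g := by group
    rwa [h4] at h3
  refine ⟨((Q₀ : Subgroup W).map W.subtype).map (MulAut.conj g).toMonoidHom, ?_, ?_, ?_, ?_⟩
  · intro x hx'
    rw [mem_map_conj] at hx'
    have h1 := (inferInstance : W.Normal).conj_mem _ (hQ₁W hx') g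
    have h2 : g * (g⁻¹ * x * g) * g⁻¹ = x := by group
    rwa [h2] at h1
  · intro x hxP
    rw [Subgroup.mem_normalizer_iff]
    intro h
    rw [mem_map_conj, mem_map_conj]
    have h1 := (Subgroup.mem_normalizer_iff.mp (hx x hxP)) (g⁻¹ * h * g)
    have h2 : g⁻¹ * x * g * (g⁻¹ * h * g) * (g⁻¹ * x * g)⁻¹ = g⁻¹ * (x * h * x⁻¹) * g := by
      group
    rw [h2] at h1
    exact h1
  · exact (Q₀.isPGroup'.map W.subtype).map _
  · have hc1 : Nat.card (((Q₀ : Subgroup W).map W.subtype).map (MulAut.conj g).toMonoidHom) =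
        Nat.card (Q₀ : Subgroup W) := by
      rw [Subgroup.card_map_of_injective (MulAut.conj g).injective,
        Subgroup.card_map_of_injective W.subtype_injective]
    have hle : ((Q₀ : Subgroup W).map W.subtype).map (MulAut.conj g).toMonoidHom ≤ W := by
      intro x hx'
      rw [mem_map_conj] at hx'
      have h1 := (inferInstance : W.Normal).conj_mem _ (hQ₁W hx') g
      have h2 : g * (g⁻¹ * x * g) * g⁻¹ = x := by group
      rwa [h2] at h1
    have h1 := card_eq_relIndex_mul_card hle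
    have h2 : Nat.card (Q₀ : Subgroup W) * (Q₀ : Subgroup W).index = Nat.card W :=
      Subgroup.card_mul_index _
    rw [hc1] at h1
    have h3 : (((Q₀ : Subgroup W).map W.subtype).map (MulAut.conj g).toMonoidHom).relIndex W =
        (Q₀ : Subgroup W).index := by
      have hpos : 0 < Nat.card (Q₀ : Subgroup W) := Nat.card_pos
      have h4 : (((Q₀ : Subgroup W).map W.subtype).map (MulAut.conj g).toMonoidHom).relIndex W *
          Nat.card (Q₀ : Subgroup W) = (Q₀ : Subgroup W).index * Nat.card (Q₀ : Subgroup W) := by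
        rw [← h1, ← h2, mul_comm]
      exact Nat.eq_of_mul_eq_mul_right hpos h4
    rw [h3]
    exact Q₀.not_dvd_index

/-- The induction statement. -/
def HP (p q : ℕ) (m : ℕ) : Prop :=
  ∀ (N : Type u) [Group N] [Finite N], Nat.card N = m →
    ∀ (C : Subgroup N) [C.Normal], Cfsg.IsPSolvable p (N ⧸ C) → q ∣ C.index →
      ∀ P : Sylow p N, ∃ L : Subgroup N, (P : Subgroup N) ≤ L ∧ IsPQ p q L ∧ q ∣ C.relIndex L

theorem reduceB {p q : ℕ} [Fact p.Prime] [Fact q.Prime] {N : Type u} [Group N] [Finite N]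
    (ih : ∀ m < Nat.card N, HP.{u} p q m) (C : Subgroup N) [C.Normal]
    (hsol : Cfsg.IsPSolvable p (N ⧸ C)) (P : Sylow p N) (M : Subgroup N) (hM : M ≠ ⊤)
    (hPM : (P : Subgroup N) ≤ M) (hq : q ∣ C.relIndex M) :
    ∃ L : Subgroup N, (P : Subgroup N) ≤ L ∧ IsPQ p q L ∧ q ∣ C.relIndex L := by
  have hlt : Nat.card M < Nat.card N := by
    refine lt_of_le_of_ne (Subgroup.card_le_card_group M) ?_
    intro h
    exact hM (Subgroup.eq_top_of_card_eq M h)
  have hsolM : Cfsg.IsPSolvable p (M ⧸ C.subgroupOf M) := by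
    have hker : ((QuotientGroup.mk' C).comp M.subtype).ker = C.subgroupOf M := by
      ext x
      rw [MonoidHom.mem_ker, Subgroup.mem_subgroupOf]
      simp [QuotientGroup.eq_one_iff]
    have h1 : Cfsg.IsPSolvable p ((QuotientGroup.mk' C).comp M.subtype).range :=
      Cfsg.Agent.Lib.Helper69.isPSolvable_subgroup p hsol _
    exact Cfsg.Agent.Lib.Helper69.isPSolvable_of_surj p
      ((QuotientGroup.quotientKerEquivRange ((QuotientGroup.mk' C).comp M.subtype)).symm.trans
        (QuotientGroup.quotientMulEquivOfEq hker)).toMonoidHom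
      ((QuotientGroup.quotientKerEquivRange ((QuotientGroup.mk' C).comp M.subtype)).symm.trans
        (QuotientGroup.quotientMulEquivOfEq hker)).surjective h1
  obtain ⟨L', hL1, hL2, hL3⟩ := ih _ hlt M rfl (C.subgroupOf M) hsolM hq (P.subtype hPM)
  refine ⟨L'.map M.subtype, ?_, ?_, ?_⟩
  · intro x hx
    have h1 : (⟨x, hPM hx⟩ : M) ∈ ((P.subtype hPM : Sylow p M) : Subgroup M) := by
      rw [Sylow.coe_subtype]; exact Subgroup.mem_subgroupOf.mpr hx
    exact ⟨⟨x, hPM hx⟩, hL1 h1, rfl⟩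
  · intro r hr hdvd
    rw [Subgroup.card_map_of_injective M.subtype_injective] at hdvd
    exact hL2 r hr hdvd
  · have h1 := Subgroup.relIndex_comap C M.subtype L'
    rw [← h1]; exact hL3

theorem reduceA {p q : ℕ} [Fact p.Prime] [Fact q.Prime] {N : Type u} [Group N] [Finite N]
    (ih : ∀ m < Nat.card N, HP.{u} p q m) (C : Subgroup N) [C.Normal]
    (hsol : Cfsg.IsPSolvable p (N ⧸ C)) (hqC : q ∣ C.index) (P : Sylow p N) (T : Subgroup N)
    [T.Normal] (hT1 : T ≠ ⊥) (hTp : IsPGroup p T) (hTC : T ≤ C) :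
    ∃ L : Subgroup N, (P : Subgroup N) ≤ L ∧ IsPQ p q L ∧ q ∣ C.relIndex L := by
  have hp : p.Prime := Fact.out
  have hfs : Function.Surjective (QuotientGroup.mk' T) := QuotientGroup.mk'_surjective T
  have hker : (QuotientGroup.mk' T).ker = T := QuotientGroup.ker_mk' T
  have hcardN : Nat.card N = Nat.card (N ⧸ T) * Nat.card T :=
    Subgroup.card_eq_card_quotient_mul_card_subgroup T
  have hT2 : 1 < Nat.card T := (Subgroup.one_lt_card_iff_ne_bot T).mpr hT1
  have hlt : Nat.card (N ⧸ T) < Nat.card N := by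
    have h0 : 0 < Nat.card (N ⧸ T) := Nat.card_pos
    rw [hcardN]; nlinarith
  haveI hCn : (C.map (QuotientGroup.mk' T)).Normal :=
    Subgroup.Normal.map inferInstance _ hfs
  have hsol' : Cfsg.IsPSolvable p ((N ⧸ T) ⧸ C.map (QuotientGroup.mk' T)) := by
    have hle : C ≤ (C.map (QuotientGroup.mk' T)).comap (QuotientGroup.mk' T) :=
      Subgroup.le_comap_map _ C
    refine Cfsg.Agent.Lib.Helper69.isPSolvable_of_surj p
      (QuotientGroup.map C (C.map (QuotientGroup.mk' T)) (QuotientGroup.mk' T) hle) ?_ hsol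
    intro x
    obtain ⟨y, rfl⟩ := QuotientGroup.mk_surjective x
    obtain ⟨z, rfl⟩ := hfs y
    exact ⟨(z : N ⧸ C), rfl⟩
  have hidx : (C.map (QuotientGroup.mk' T)).index = C.index :=
    Subgroup.index_map_eq C hfs (by rw [hker]; exact hTC)
  obtain ⟨L', hL1, hL2, hL3⟩ := ih _ hlt (N ⧸ T) rfl (C.map (QuotientGroup.mk' T)) hsol'
    (by rw [hidx]; exact hqC) (P.mapSurjective hfs)
  refine ⟨L'.comap (QuotientGroup.mk' T), ?_, ?_, ?_⟩
  · rw [← Subgroup.map_le_iff_le_comap]
    rw [Sylow.coe_mapSurjective] at hL1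
    exact hL1
  · have h1 : (L'.comap (QuotientGroup.mk' T)).index = L'.index :=
      Subgroup.index_comap_of_surjective L' hfs
    have h2 : Nat.card (L'.comap (QuotientGroup.mk' T)) *
        (L'.comap (QuotientGroup.mk' T)).index = Nat.card N := Subgroup.card_mul_index _
    have h3 : Nat.card L' * L'.index = Nat.card (N ⧸ T) := Subgroup.card_mul_index _
    have h4 : Nat.card (L'.comap (QuotientGroup.mk' T)) = Nat.card L' * Nat.card T := by
      have hpos : 0 < L'.index := Nat.pos_of_ne_zero Subgroup.index_ne_zero_of_finite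
      rw [h1, hcardN, ← h3] at h2
      have h5 : Nat.card (L'.comap (QuotientGroup.mk' T)) * L'.index =
          Nat.card L' * Nat.card T * L'.index := by rw [h2]; ring
      exact Nat.eq_of_mul_eq_mul_right hpos h5
    intro r hr hdvd
    rw [h4] at hdvd
    rcases (Nat.Prime.dvd_mul hr).mp hdvd with h | h
    · exact hL2 r hr h
    · obtain ⟨k, hk⟩ := hTp.exists_card_eq
      rw [hk] at h
      exact Or.inl ((Nat.prime_dvd_prime_iff_eq hr hp).mp (hr.dvd_of_dvd_pow h))
  · have h1 : (C.map (QuotientGroup.mk' T)).comap (QuotientGroup.mk' T) = C := by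
      rw [Subgroup.comap_map_eq, hker, sup_of_le_left hTC]
    have h2 := Subgroup.relIndex_comap (C.map (QuotientGroup.mk' T)) (QuotientGroup.mk' T)
      (L'.comap (QuotientGroup.mk' T))
    rw [h1, Subgroup.map_comap_eq_self_of_surjective hfs] at h2
    rw [h2]; exact hL3

/-- **A `{p, q}`-subgroup over a Sylow `p`-subgroup.** -/
theorem hallPQ (p q : ℕ) [Fact p.Prime] [Fact q.Prime] (hpq : p ≠ q) : ∀ n : ℕ, HP.{u} p q n := by
  intro n
  induction n using Nat.strong_induction_on with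
  | _ n ih =>
  intro N _ _ hn C0 _ hsol0 hq0 P
  have hp : p.Prime := Fact.out
  have hq : q.Prime := Fact.out
  subst hn
  -- enlarge `C`
  obtain ⟨C, ⟨hC0C, hCn, hqC⟩, hmin⟩ := Set.exists_min_image
    {C' : Subgroup N | C0 ≤ C' ∧ C'.Normal ∧ q ∣ C'.index} (fun C' => C'.index)
    (Set.toFinite _) ⟨C0, le_rfl, inferInstance, hq0⟩
  haveI := hCn
  have hmax : ∀ Y : Subgroup N, Y.Normal → C < Y → ¬ q ∣ Y.index := by
    intro Y hYn hCY hqY
    have h1 : C.index ≤ Y.index := hmin Y ⟨hC0C.trans hCY.le, hYn, hqY⟩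
    have h2 := Subgroup.relIndex_mul_index hCY.le
    have h3 : C.relIndex Y ≠ 1 := fun h => (not_le_of_gt hCY) (Subgroup.relIndex_eq_one.mp h)
    have h5 : Y.index ≠ 0 := Subgroup.index_ne_zero_of_finite
    have h4 : C.relIndex Y ≠ 0 := by
      intro h
      rw [h, zero_mul] at h2
      exact (Subgroup.index_ne_zero_of_finite (H := C)) h2.symm
    have h6 : 2 ≤ C.relIndex Y := by omega
    have h7 : 0 < Y.index := Nat.pos_of_ne_zero h5
    nlinarith
  have hsol : Cfsg.IsPSolvable p (N ⧸ C) := by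
    refine Cfsg.Agent.Lib.Helper69.isPSolvable_of_surj p
      (QuotientGroup.map C0 C (MonoidHom.id N) hC0C) ?_ hsol0
    intro x
    obtain ⟨y, rfl⟩ := QuotientGroup.mk_surjective x
    exact ⟨(y : N ⧸ C0), rfl⟩
  suffices h : ∃ L : Subgroup N, (P : Subgroup N) ≤ L ∧ IsPQ p q L ∧ q ∣ C.relIndex L by
    obtain ⟨L, h1, h2, h3⟩ := h
    exact ⟨L, h1, h2, h3.trans (Subgroup.relIndex_dvd_of_le_left L hC0C)⟩
  -- the Sylow `p`-subgroup `P ⊓ C` of `C`
  have hRmap : ((Cfsg.Agent.Lib.Helper72.sylowInf C P : Sylow p C) : Subgroup C).map C.subtype =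
      (P : Subgroup N) ⊓ C := by
    rw [Cfsg.Agent.Lib.Helper72.coe_sylowInf, Subgroup.subgroupOf_map_subtype]
  have hFr : normalizer ((((P : Subgroup N) ⊓ C : Subgroup N)) : Set N) ⊔ C = ⊤ := by
    rw [← hRmap]; exact Sylow.normalizer_sup_eq_top _
  have hPM : (P : Subgroup N) ≤ normalizer ((((P : Subgroup N) ⊓ C : Subgroup N)) : Set N) := by
    intro x hx
    rw [Subgroup.mem_normalizer_iff]
    intro h
    constructor
    · intro hh
      exact ⟨(P : Subgroup N).mul_mem ((P : Subgroup N).mul_mem hx hh.1)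
        ((P : Subgroup N).inv_mem hx), hCn.conj_mem h hh.2 x⟩
    · intro hh
      have h1 : x⁻¹ * (x * h * x⁻¹) * x = h := by group
      rw [← h1]
      refine ⟨(P : Subgroup N).mul_mem ((P : Subgroup N).mul_mem ((P : Subgroup N).inv_mem hx)
        hh.1) hx, ?_⟩
      have h2 := hCn.conj_mem _ hh.2 x⁻¹
      simpa using h2
  have hqM : q ∣ C.relIndex (normalizer ((((P : Subgroup N) ⊓ C : Subgroup N)) : Set N)) := by
    rw [← Subgroup.relIndex_sup_right
      (H := normalizer ((((P : Subgroup N) ⊓ C : Subgroup N)) : Set N)) (K := C), hFr,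
      Subgroup.relIndex_top_right]
    exact hqC
  by_cases hMtop : normalizer ((((P : Subgroup N) ⊓ C : Subgroup N)) : Set N) = ⊤
  swap
  · exact reduceB ih C hsol P _ hMtop hPM hqM
  have hRn : ((P : Subgroup N) ⊓ C).Normal := Subgroup.normalizer_eq_top_iff.mp hMtop
  by_cases hR1 : (P : Subgroup N) ⊓ C = ⊥
  swap
  · exact reduceA ih C hsol hqC P ((P : Subgroup N) ⊓ C) hR1 (P.isPGroup'.to_le inf_le_left)
      inf_le_right
  -- now `C` is a `p'`-group
  have hpC : ¬ p ∣ Nat.card C := by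
    have h1 := (Cfsg.Agent.Lib.Helper72.sylowInf C P).not_dvd_index
    have h2 : ((Cfsg.Agent.Lib.Helper72.sylowInf C P : Sylow p C) : Subgroup C) = ⊥ := by
      rw [Cfsg.Agent.Lib.Helper72.coe_sylowInf, Subgroup.subgroupOf_eq_bot]
      exact disjoint_iff.mpr hR1
    rw [h2, Subgroup.index_bot] at h1
    exact h1
  haveI hXnt : Nontrivial (N ⧸ C) := by
    rw [← Finite.one_lt_card_iff_nontrivial, ← Subgroup.index_eq_card]
    have h0 : C.index ≠ 0 := Subgroup.index_ne_zero_of_finite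
    have h1 := Nat.le_of_dvd (Nat.pos_of_ne_zero h0) hqC
    have h2 := hq.two_le
    omega
  obtain ⟨Ybar, hYn, hY1, hYcase⟩ := exists_normal_of_psol p hsol
  have hfs : Function.Surjective (QuotientGroup.mk' C) := QuotientGroup.mk'_surjective C
  have hker : (QuotientGroup.mk' C).ker = C := QuotientGroup.ker_mk' C
  haveI hYnormal : (Ybar.comap (QuotientGroup.mk' C)).Normal := hYn.comap _
  have hCYle : C ≤ Ybar.comap (QuotientGroup.mk' C) := by
    intro x hx
    rw [Subgroup.mem_comap]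
    have h1 : (QuotientGroup.mk' C) x = 1 := by
      rw [← MonoidHom.mem_ker, hker]; exact hx
    rw [h1]; exact Subgroup.one_mem _
  have hCY : C < Ybar.comap (QuotientGroup.mk' C) := by
    refine lt_of_le_of_ne hCYle ?_
    intro heq
    apply hY1
    have h1 : (Ybar.comap (QuotientGroup.mk' C)).map (QuotientGroup.mk' C) = Ybar :=
      Subgroup.map_comap_eq_self_of_surjective hfs Ybar
    rw [← h1, ← heq, eq_bot_iff]
    rintro _ ⟨x, hx, rfl⟩
    rw [Subgroup.mem_bot, ← MonoidHom.mem_ker, hker]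
    exact hx
  have hqY : ¬ q ∣ (Ybar.comap (QuotientGroup.mk' C)).index := hmax _ hYnormal hCY
  have hYidx : (Ybar.comap (QuotientGroup.mk' C)).index = Ybar.index :=
    Subgroup.index_comap_of_surjective Ybar hfs
  have hcardX : Nat.card Ybar * Ybar.index = C.index := by
    rw [Subgroup.card_mul_index, Subgroup.index_eq_card]
  have hqYbar : q ∣ Nat.card Ybar := by
    have h1 : q ∣ Nat.card Ybar * Ybar.index := by rw [hcardX]; exact hqC
    rcases (Nat.Prime.dvd_mul hq).mp h1 with h | h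
    · exact h
    · rw [← hYidx] at h
      exact absurd h hqY
  have hcop : ¬ p ∣ Nat.card Ybar := by
    rcases hYcase with h | h
    · exfalso
      obtain ⟨k, hk⟩ := h.exists_card_eq
      rw [hk] at hqYbar
      exact hpq ((Nat.prime_dvd_prime_iff_eq hq hp).mp (hq.dvd_of_dvd_pow hqYbar)).symm
    · exact (Nat.Prime.coprime_iff_not_dvd hp).mp h.symm
  have hrel : C.relIndex (Ybar.comap (QuotientGroup.mk' C)) = Nat.card Ybar := by
    have h1 := Subgroup.relIndex_mul_index hCY.le
    rw [hYidx, ← hcardX] at h1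
    exact Nat.eq_of_mul_eq_mul_right
      (Nat.pos_of_ne_zero (Subgroup.index_ne_zero_of_finite (H := Ybar))) h1
  have hpY : ¬ p ∣ Nat.card (Ybar.comap (QuotientGroup.mk' C)) := by
    rw [card_eq_relIndex_mul_card hCY.le, hrel]
    intro h
    rcases (Nat.Prime.dvd_mul hp).mp h with h | h
    · exact hcop h
    · exact hpC h
  obtain ⟨Q, hQY, hPQ, hQq, hQidx⟩ := exists_invariant_sylow p q
    (Ybar.comap (QuotientGroup.mk' C)) hpY (P : Subgroup N) P.isPGroup'
  have hQC : ¬ Q ≤ C := by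
    intro hQC
    have h1 : C.relIndex (Ybar.comap (QuotientGroup.mk' C)) ∣
        Q.relIndex (Ybar.comap (QuotientGroup.mk' C)) :=
      Subgroup.relIndex_dvd_of_le_left _ hQC
    rw [hrel] at h1
    exact hQidx (hqYbar.trans h1)
  refine ⟨(P : Subgroup N) ⊔ Q, le_sup_left, ?_, ?_⟩
  · intro r hr hdvd
    have h1 := hdvd.trans (Cfsg.Agent.Lib.Helper1.Mix.card_sup_dvd (P : Subgroup N) Q hPQ)
    rcases (Nat.Prime.dvd_mul hr).mp h1 with h | h
    · obtain ⟨k, hk⟩ := P.isPGroup'.exists_card_eq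
      rw [hk] at h
      exact Or.inl ((Nat.prime_dvd_prime_iff_eq hr hp).mp (hr.dvd_of_dvd_pow h))
    · obtain ⟨k, hk⟩ := hQq.exists_card_eq
      rw [hk] at h
      exact Or.inr ((Nat.prime_dvd_prime_iff_eq hr hq).mp (hr.dvd_of_dvd_pow h))
  · have h1 : C.relIndex Q ∣ C.relIndex ((P : Subgroup N) ⊔ Q) :=
      relIndex_dvd_relIndex_of_le C le_sup_right
    refine Dvd.dvd.trans ?_ h1
    have h2 : C.relIndex Q ∣ Nat.card Q := Subgroup.relIndex_dvd_card C Q
    obtain ⟨k, hk⟩ := hQq.exists_card_eq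
    rw [hk] at h2
    obtain ⟨j, hj, hj'⟩ := (Nat.dvd_prime_pow hq).mp h2
    have hj0 : j ≠ 0 := by
      rintro rfl
      rw [pow_zero] at hj'
      exact hQC (Subgroup.relIndex_eq_one.mp hj')
    rw [hj']
    exact dvd_pow_self q hj0

end Cfsg.Agent.Lib.Helper21.HPQ
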