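import Mathlib

set_option autoImplicit false

namespace Cfsg.Agent.Lib.Helper21.MTBasic

/-- In a finite `p`-group acting on a set, on an orbit of size `p` the action is commutative and
`p`-th powers act trivially. -/
theorem pgroup_orbit_prime {P X : Type*} [Group P] [Finite P] [MulAction P X] {p : ℕ}
    [Fact p.Prime] (hP : IsPGroup p P) (x : X) (hx : Nat.card (MulAction.orbit P x) = p)
    (a b : P) : (a * b) • x = (b * a) • x ∧ a ^ p • x = x := by
  have hp : p.Prime := Fact.out
  set S := MulAction.stabilizer P x with hS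
  have hidx : S.index = p := by
    rw [hS, MulAction.index_stabilizer, ← hx, Nat.card_coe_set_eq]
  obtain ⟨n, hn⟩ := IsPGroup.iff_card.mp hP
  have hn0 : n ≠ 0 := by
    rintro rfl
    have h1 : S.index ∣ Nat.card P := Subgroup.index_dvd_card S
    rw [hidx, hn, pow_zero] at h1
    exact hp.one_lt.ne' (Nat.dvd_one.mp h1)
  have hmin : (Nat.card P).minFac = p := by
    rw [hn]; exact hp.pow_minFac hn0
  haveI : S.Normal := Subgroup.normal_of_index_eq_minFac_card (by rw [hidx, hmin])
  have hcard : Nat.card (P ⧸ S) = p := by rw [← Subgroup.index_eq_card, hidx]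
  haveI : IsCyclic (P ⧸ S) := isCyclic_of_prime_card hcard
  constructor
  · have h1 : ((a * b : P) : P ⧸ S) = ((b * a : P) : P ⧸ S) := by
      rw [QuotientGroup.mk_mul, QuotientGroup.mk_mul]
      exact mul_comm' _ _
    rw [QuotientGroup.eq] at h1
    have h2 : ((a * b)⁻¹ * (b * a)) • x = x := h1
    rw [mul_smul, inv_smul_eq_iff] at h2
    exact h2.symm
  · have h1 : ((a ^ p : P) : P ⧸ S) = 1 := by
      rw [QuotientGroup.mk_pow, ← hcard]; exact pow_card_eq_one'
    rw [QuotientGroup.eq_one_iff] at h1
    exact h1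

/-- If `z` commutes with `q` and agrees with `q` at `x`, then `z ^ j` agrees with `q ^ j` at `x`. -/
theorem pow_smul_eq_of_commute {M X : Type*} [Group M] [MulAction M X] (z q : M)
    (hc : Commute z q) (x : X) (hz : z • x = q • x) (j : ℕ) : z ^ j • x = q ^ j • x := by
  induction j with
  | zero => simp
  | succ j ih =>
    rw [pow_succ, mul_smul, hz, ← mul_smul, (hc.pow_left j).eq, mul_smul, ih, ← mul_smul,
      ← pow_succ']

end Cfsg.Agent.Lib.Helper21.MTBasic
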