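import Mathlib
import Cfsg.Agent.Lib.Helper21.MTBasic

set_option autoImplicit false

namespace Cfsg.Agent.Lib.Helper21.MTSetup

open MulAction Cfsg.Agent.Lib.Helper21.MTBasic

/-- The image in `G` of a Sylow subgroup of the stabilizer of a tuple. -/
abbrev sylG {α : Type*} (G : Subgroup (Equiv.Perm α)) {t : ℕ} (x : Fin t ↪ α) {p : ℕ}
    (P : Sylow p (stabilizer G x)) : Subgroup G :=
  (P : Subgroup (stabilizer G x)).map (stabilizer G x).subtype

theorem mem_stab_iff {α : Type*} (G : Subgroup (Equiv.Perm α)) {t : ℕ} (x : Fin t ↪ α) (g : G) :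
    g ∈ stabilizer G x ↔ ∀ i, g • x i = x i := by
  rw [mem_stabilizer_iff]
  constructor
  · intro h i
    exact DFunLike.congr_fun h i
  · intro h
    ext i
    exact h i

theorem sylG_fix {α : Type*} (G : Subgroup (Equiv.Perm α)) {t : ℕ} (x : Fin t ↪ α) {p : ℕ}
    (P : Sylow p (stabilizer G x)) (a : G) (ha : a ∈ sylG G x P) (i : Fin t) : a • x i = x i := by
  obtain ⟨h, _, rfl⟩ := ha
  exact (mem_stab_iff G x h.1).mp h.2 i

theorem sylG_isPGroup {α : Type*} (G : Subgroup (Equiv.Perm α)) {t : ℕ} (x : Fin t ↪ α) {p : ℕ}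
    (P : Sylow p (stabilizer G x)) : IsPGroup p (sylG G x P) :=
  P.isPGroup'.map _

/-- extension of a tuple by a new point at index `0`. -/
def consEmb {α : Type*} {t : ℕ} (x : Fin t ↪ α) (y : α) (hy : y ∉ Set.range x) : Fin (t + 1) ↪ α :=
  ⟨Fin.cons y x, Fin.cons_injective_iff.mpr ⟨hy, x.injective⟩⟩

theorem stab_trans {α : Type*} (G : Subgroup (Equiv.Perm α)) {t : ℕ}
    (hG : IsMultiplyPretransitive G α (t + 1)) (x : Fin t ↪ α) (y y' : α)
    (hy : y ∉ Set.range x) (hy' : y' ∉ Set.range x) :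
    ∃ h : G, h ∈ stabilizer G x ∧ h • y = y' := by
  obtain ⟨g, hg⟩ := hG.exists_smul_eq (consEmb x y hy) (consEmb x y' hy')
  refine ⟨g, ?_, ?_⟩
  · rw [mem_stab_iff]
    intro i
    have := DFunLike.congr_fun hg i.succ
    simpa [consEmb] using this
  · have := DFunLike.congr_fun hg 0
    simpa [consEmb] using this

theorem ncard_compl_range {α : Type*} [Fintype α] {t : ℕ} (x : Fin t ↪ α) :
    ((Set.range x)ᶜ : Set α).ncard = Fintype.card α - t := by
  have h1 := Set.ncard_add_ncard_compl (Set.range x)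
  have h2 : (Set.range x).ncard = t := by
    rw [← Set.image_univ, Set.ncard_image_of_injective _ x.injective, Set.ncard_univ, Nat.card_fin]
  rw [Nat.card_eq_fintype_card] at h1
  omega

theorem setup {α : Type*} [Fintype α] [DecidableEq α] (G : Subgroup (Equiv.Perm α)) {k p r : ℕ}
    [Fact p.Prime] (hn : Fintype.card α = k * p + r) (hkp : k < p)
    (hG : IsMultiplyPretransitive G α (r + 1)) (x : Fin r ↪ α)
    (P : Sylow p (stabilizer G x)) :
    (∀ y, y ∉ Set.range x → Nat.card (orbit (sylG G x P) y) = p) ∧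
    (∀ a ∈ sylG G x P, ∀ b ∈ sylG G x P, a * b = b * a) ∧
    (∀ a ∈ sylG G x P, a ^ p = 1) := by
  classical
  have hp : p.Prime := Fact.out
  have hPg : IsPGroup p (sylG G x P) := sylG_isPGroup G x P
  -- orbit of `H`
  have horbH : ∀ y, y ∉ Set.range x → orbit (stabilizer G x) y = (Set.range x)ᶜ := by
    intro y hy
    ext y'
    constructor
    · rintro ⟨h, rfl⟩
      intro hmem
      obtain ⟨i, hi⟩ := hmem
      apply hy
      refine ⟨i, ?_⟩
      have h1 : (h : G) • x i = x i := (mem_stab_iff G x h.1).mp h.2 i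
      have h2 : (h : G) • x i = (h : G) • y := by rw [h1, hi]; rfl
      exact smul_left_cancel _ h2
    · intro hy'
      obtain ⟨h, hh, hhy⟩ := stab_trans G hG x y y' hy hy'
      exact ⟨⟨h, hh⟩, hhy⟩
  have hcompl : ((Set.range x)ᶜ : Set α).ncard = k * p := by
    rw [ncard_compl_range, hn]; omega
  -- `P` fixes no point outside
  have hnofix : ∀ y, y ∉ Set.range x → ∃ q ∈ sylG G x P, q • y ≠ y := by
    intro y hy
    by_contra hcon
    push Not at hcon
    have hle : (P : Subgroup (stabilizer G x)) ≤ stabilizer (stabilizer G x) y := by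
      intro q hq
      rw [mem_stabilizer_iff]
      exact hcon q.1 ⟨q, hq, rfl⟩
    have h1 := Subgroup.index_dvd_of_le hle
    rw [index_stabilizer, horbH y hy, hcompl] at h1
    exact P.not_dvd_index ((dvd_mul_left p k).trans h1)
  have horb : ∀ y, y ∉ Set.range x → Nat.card (orbit (sylG G x P) y) = p := by
    intro y hy
    obtain ⟨e, he⟩ := hPg.card_orbit y
    have hsub : orbit (sylG G x P) y ⊆ (Set.range x)ᶜ := by
      rintro _ ⟨q, rfl⟩ hmem
      obtain ⟨i, hi⟩ := hmem
      apply hy
      refine ⟨i, ?_⟩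
      have h1 : (q : G) • x i = x i := sylG_fix G x P q.1 q.2 i
      have h2 : (q : G) • x i = (q : G) • y := by rw [h1, hi]; rfl
      exact smul_left_cancel _ h2
    have hle : Nat.card (orbit (sylG G x P) y) ≤ k * p := by
      rw [Nat.card_coe_set_eq, ← hcompl]
      exact Set.ncard_le_ncard hsub (Set.toFinite _)
    have he0 : e ≠ 0 := by
      rintro rfl
      rw [pow_zero] at he
      obtain ⟨q, hq, hqy⟩ := hnofix y hy
      apply hqy
      have hsubs : Subsingleton (orbit (sylG G x P) y) := (Nat.card_eq_one_iff_unique.mp he).1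
      have h1 : (⟨q • y, ⟨⟨q, hq⟩, rfl⟩⟩ : orbit (sylG G x P) y) = ⟨y, mem_orbit_self y⟩ :=
        Subsingleton.elim _ _
      exact congrArg Subtype.val h1
    have he1 : e < 2 := by
      by_contra hcon
      push Not at hcon
      have h1 : p ^ 2 ≤ p ^ e := Nat.pow_le_pow_right hp.pos hcon
      have h2 : k * p < p * p := Nat.mul_lt_mul_of_pos_right hkp hp.pos
      rw [he] at hle
      nlinarith
    have : e = 1 := by omega
    rw [he, this, pow_one]
  refine ⟨horb, ?_, ?_⟩
  · intro a ha b hb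
    apply Subtype.ext
    apply Equiv.ext
    intro y
    by_cases hy : y ∈ Set.range x
    · obtain ⟨i, rfl⟩ := hy
      have h1 : (a * b) • x i = x i := by
        rw [mul_smul, sylG_fix G x P b hb, sylG_fix G x P a ha]
      have h2 : (b * a) • x i = x i := by
        rw [mul_smul, sylG_fix G x P a ha, sylG_fix G x P b hb]
      exact h1.trans h2.symm
    · exact (pgroup_orbit_prime (P := sylG G x P) hPg y (horb y hy) ⟨a, ha⟩ ⟨b, hb⟩).1
  · intro a ha
    apply Subtype.ext
    apply Equiv.ext
    intro y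
    by_cases hy : y ∈ Set.range x
    · obtain ⟨i, rfl⟩ := hy
      have h1 : ∀ j : ℕ, a ^ j • x i = x i := by
        intro j
        induction j with
        | zero => simp
        | succ j ih => rw [pow_succ, mul_smul, sylG_fix G x P a ha, ih]
      exact h1 p
    · exact (pgroup_orbit_prime (P := sylG G x P) hPg y (horb y hy) ⟨a, ha⟩ ⟨a, ha⟩).2

end Cfsg.Agent.Lib.Helper21.MTSetup
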