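import Mathlib
import Cfsg.Agent.S0711
import Cfsg.Agent.S0415
import Cfsg.Agent.S0416
import Cfsg.Agent.S0417

set_option autoImplicit false

namespace Cfsg.Agent.Lib.Helper21.MTSharp

open MulAction

/-- A nontrivial element with small support in an `(r+1)`-transitive group. -/
theorem alt_le_of_support {α : Type*} [Fintype α] [DecidableEq α] (G : Subgroup (Equiv.Perm α))
    {r : ℕ} (hr : 3 ≤ r) (hn1 : r + 1 ≤ Fintype.card α)
    (hG : IsMultiplyPretransitive G α (r + 1)) (g : G) (hg1 : g ≠ 1)
    (hsupp : (g : Equiv.Perm α).support.card < 2 * r) : alternatingGroup α ≤ G := by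
  refine (Cfsg.Agent.S0711.result G (k := r + 1) (by omega) hn1 hG g.1 g.2 ?_ (by omega)).2
  intro h; apply hg1; exact Subtype.ext h

/-- The case where the degree is at most `3r`. -/
theorem small_case {α : Type*} [Fintype α] [DecidableEq α] (G : Subgroup (Equiv.Perm α)) {r : ℕ}
    (hr : 3 ≤ r) (hn1 : r + 1 ≤ Fintype.card α) (hn2 : Fintype.card α ≤ 3 * r)
    (hn3 : Fintype.card α ≠ r + 8)
    (hG : IsMultiplyPretransitive G α (r + 1)) : alternatingGroup α ≤ G := by
  classical
  by_cases h : ∃ g : G, g ≠ 1 ∧ ∃ x : Fin (r + 1) ↪ α, g ∈ stabilizer G x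
  · obtain ⟨g, hg1, x, hx⟩ := h
    apply alt_le_of_support G hr hn1 hG g hg1
    have hsub : (g : Equiv.Perm α).support ⊆ (Finset.univ.map x)ᶜ := by
      intro y hy
      rw [Finset.mem_compl, Finset.mem_map]
      rintro ⟨i, -, rfl⟩
      rw [Equiv.Perm.mem_support] at hy
      apply hy
      rw [mem_stabilizer_iff] at hx
      exact DFunLike.congr_fun hx i
    have h1 := Finset.card_le_card hsub
    rw [Finset.card_compl, Finset.card_map, Finset.card_univ, Fintype.card_fin] at h1
    omega
  · push Not at h
    have hsharp : ∀ x : Fin (r + 1) ↪ α, stabilizer G x = ⊥ := by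
      intro x
      rw [Subgroup.eq_bot_iff_forall]
      intro g hg
      by_contra hne
      exact h g hne x hg
    have hcard : Fintype.card α ≤ r + 3 := by
      rcases Nat.lt_or_ge r 5 with h5 | h5
      · have h34 : r = 3 ∨ r = 4 := by omega
        rcases h34 with rfl | rfl
        · haveI : IsMultiplyPretransitive G α 4 := hG
          have := Cfsg.Agent.S0415.result G (by omega) hsharp
          omega
        · haveI : IsMultiplyPretransitive G α 5 := hG
          have := Cfsg.Agent.S0416.result G (by omega) hsharp
          omega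
      · haveI : IsMultiplyPretransitive G α (r + 1) := hG
        have := Cfsg.Agent.S0417.result G (r + 1) (by omega) hn1 hsharp
        omega
    apply IsMultiplyPretransitive.alternatingGroup_le (α := α) G
    haveI : IsMultiplyPretransitive G α (r + 1) := hG
    exact isMultiplyPretransitive_of_le (n := r + 1)
      (by rw [Nat.card_eq_fintype_card]; omega) (by rw [Nat.card_eq_fintype_card]; omega)

end Cfsg.Agent.Lib.Helper21.MTSharp
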