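import Mathlib
import Cfsg.Agent.S4219
import Cfsg.Agent.Lib.Helper21.MTBasic
import Cfsg.Agent.Lib.Helper21.MTSetup
import Cfsg.Agent.Lib.Helper21.MTSharp

set_option autoImplicit false

namespace Cfsg.Agent.Lib.Helper21.MTCaseB

open MulAction Cfsg.Agent.Lib.Helper21.MTBasic Cfsg.Agent.Lib.Helper21.MTSetup
  Cfsg.Agent.Lib.Helper21.MTSharp

universe u

/-- The group induced on a subset `F` by a subgroup `N` (those permutations of `F` that are
restrictions of elements of `N`). -/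
def resGroup {α : Type*} {G : Subgroup (Equiv.Perm α)} (N : Subgroup G) (F : Set α) :
    Subgroup (Equiv.Perm F) where
  carrier := {τ | ∃ g ∈ N, ∀ y : F, g • (y : α) = (τ y : α)}
  mul_mem' := by
    rintro τ1 τ2 ⟨g1, h1, e1⟩ ⟨g2, h2, e2⟩
    exact ⟨g1 * g2, N.mul_mem h1 h2, fun y => by rw [mul_smul, e2 y, e1 (τ2 y)]; rfl⟩
  one_mem' := ⟨1, N.one_mem, fun y => by simp⟩
  inv_mem' := by
    rintro τ ⟨g, h, e⟩
    exact ⟨g⁻¹, N.inv_mem h, fun y => by rw [inv_smul_eq_iff, e (τ⁻¹ y)]; simp⟩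

theorem perm_mem_iff_of_support {α : Type*} (σ : Equiv.Perm α) (F : Set α)
    (hs : ∀ y, σ y ≠ y → y ∈ F) (y : α) : σ y ∈ F ↔ y ∈ F := by
  by_cases h : σ y = y
  · rw [h]
  · constructor
    · intro _; exact hs y h
    · intro _
      apply hs
      intro h2
      exact h (σ.injective h2)

theorem smul_eq_coe {α : Type*} {G : Subgroup (Equiv.Perm α)} (g : G) (y : α) :
    g • y = (g : Equiv.Perm α) y := rfl

theorem normalizer_fix {α : Type*} {G : Subgroup (Equiv.Perm α)} (Q : Subgroup G) (g : G)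
    (hg : g ∈ Subgroup.normalizer (Q : Set G)) (y : α) (hy : y ∈ fixedPoints Q α) :
    g • y ∈ fixedPoints Q α := by
  intro q
  have h1 : g⁻¹ * (q : G) * g ∈ Q := by
    have := (Subgroup.mem_normalizer_iff.mp hg (g⁻¹ * (q : G) * g))
    rw [this]
    have : g * (g⁻¹ * (q : G) * g) * g⁻¹ = q := by group
    rw [this]; exact q.2
  have h2 := hy ⟨_, h1⟩
  have h3 : (g⁻¹ * (q : G) * g) • y = y := h2
  rw [mul_smul, mul_smul, inv_smul_eq_iff] at h3
  exact h3

theorem perm_apply_inv {α : Type*} (σ : Equiv.Perm α) (y : α) : σ (σ⁻¹ y) = y := by simp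

theorem ncard_range_emb {α : Type*} {t : ℕ} (x : Fin t ↪ α) : (Set.range x).ncard = t := by
  rw [← Set.image_univ, Set.ncard_image_of_injective _ x.injective, Set.ncard_univ, Nat.card_fin]

theorem coe_swap_subtype {α : Type*} [DecidableEq α] {F : Set α} [DecidableEq F] (a b y : F) :
    ((Equiv.swap a b y : F) : α) = Equiv.swap (a : α) (b : α) (y : α) := by
  rw [Equiv.swap_apply_def, Equiv.swap_apply_def]
  split_ifs with h1 h2 h3 h4 h5 <;> simp_all [Subtype.ext_iff]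

theorem case_B {α : Type u} [Fintype α] [DecidableEq α] (G : Subgroup (Equiv.Perm α)) {k p r : ℕ}
    (hp : p.Prime) (hn : Fintype.card α = k * p + r) (hk : 1 ≤ k) (hkp : k < p) (hkr : k < r)
    (hr : 3 ≤ r) (hp3 : p ≠ 3)
    (hG : IsMultiplyPretransitive G α (r + 1))
    (IH : ∀ k' < k, ∀ (β : Type u) [Fintype β] [DecidableEq β] (G' : Subgroup (Equiv.Perm β)),
      Fintype.card β = k' * p + r → 1 ≤ k' → IsMultiplyPretransitive G' β (r + 1) →
      alternatingGroup β ≤ G')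
    (g₀ : G) (hg1 : g₀ ≠ 1) (hgp : g₀ ^ p = 1) (x₁ : Fin (r + 1) ↪ α)
    (hx₁ : g₀ ∈ stabilizer G x₁) : alternatingGroup α ≤ G := by
  classical
  haveI : Fact p.Prime := ⟨hp⟩
  have hn1 : r + 1 ≤ Fintype.card α := by
    have := Fintype.card_le_of_embedding x₁
    simpa using this
  -- the Sylow subgroup `Q`
  have hpg : IsPGroup p (Subgroup.zpowers (⟨g₀, hx₁⟩ : stabilizer G x₁)) := by
    rintro ⟨h, hh⟩
    obtain ⟨j, rfl⟩ := Subgroup.mem_zpowers_iff.mp hh
    refine ⟨1, ?_⟩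
    apply Subtype.ext
    apply Subtype.ext
    simp only [pow_one, Subgroup.coe_pow, Subgroup.coe_zpow, Subgroup.coe_one]
    rw [← zpow_natCast, ← zpow_mul, mul_comm, zpow_mul, zpow_natCast, hgp, one_zpow]
  obtain ⟨Q₀, hQ₀⟩ := hpg.exists_le_sylow
  have hg₀Q : g₀ ∈ sylG G x₁ Q₀ := ⟨⟨g₀, hx₁⟩, hQ₀ (Subgroup.mem_zpowers _), rfl⟩
  have hQpg : IsPGroup p (sylG G x₁ Q₀) := sylG_isPGroup G x₁ Q₀
  -- the first `r` points
  set x₀ : Fin r ↪ α := (Fin.succEmb r).trans x₁ with hx₀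
  have hx₀i : ∀ i, x₀ i = x₁ i.succ := fun i => rfl
  set ω : α := x₁ 0 with hω
  have hωx : ω ∉ Set.range x₀ := by
    rintro ⟨i, hi⟩
    rw [hx₀i] at hi
    exact Fin.succ_ne_zero i (x₁.injective hi)
  have hQfix : ∀ q ∈ sylG G x₁ Q₀, ∀ i, q • x₁ i = x₁ i := fun q hq i => sylG_fix G x₁ Q₀ q hq i
  have hQH : ∀ q ∈ sylG G x₁ Q₀, q ∈ stabilizer G x₀ := by
    intro q hq
    rw [mem_stab_iff]
    intro i
    exact hQfix q hq i.succ
  have hQp : IsPGroup p ((sylG G x₁ Q₀).subgroupOf (stabilizer G x₀)) := hQpg.comap_subtype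
  obtain ⟨P₀, hP₀⟩ := hQp.exists_le_sylow
  have hQP : ∀ q ∈ sylG G x₁ Q₀, q ∈ sylG G x₀ P₀ := by
    intro q hq
    exact ⟨⟨q, hQH q hq⟩, hP₀ (Subgroup.mem_subgroupOf.mpr hq), rfl⟩
  obtain ⟨horb, hcomm, hexp⟩ := setup G hn hkp hG x₀ P₀
  have hPfix : ∀ a ∈ sylG G x₀ P₀, ∀ i, a • x₀ i = x₀ i := fun a ha i => sylG_fix G x₀ P₀ a ha i
  -- (B1)
  have hB1 : ∀ a ∈ sylG G x₀ P₀, a • ω = ω → a ∈ sylG G x₁ Q₀ := by
    intro a ha haω
    have haS : a ∈ stabilizer G x₁ := by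
      rw [mem_stab_iff]
      intro i
      refine Fin.cases ?_ (fun j => ?_) i
      · exact haω
      · exact hPfix a ha j
    have hpg2 : IsPGroup p ((sylG G x₀ P₀).subgroupOf (stabilizer G x₁)) :=
      (sylG_isPGroup G x₀ P₀).comap_subtype
    have hle : (Q₀ : Subgroup (stabilizer G x₁)) ≤ (sylG G x₀ P₀).subgroupOf (stabilizer G x₁) := by
      intro h hh
      rw [Subgroup.mem_subgroupOf]
      exact hQP h.1 ⟨h, hh, rfl⟩
    have heq := Q₀.is_maximal' hpg2 hle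
    have h1 : (⟨a, haS⟩ : stabilizer G x₁) ∈ (sylG G x₀ P₀).subgroupOf (stabilizer G x₁) :=
      Subgroup.mem_subgroupOf.mpr ha
    rw [heq] at h1
    exact ⟨⟨a, haS⟩, h1, rfl⟩
  -- (B3)
  have hB3 : ∃ a ∈ sylG G x₀ P₀, a • ω ≠ ω := by
    by_contra hcon
    push Not at hcon
    have h1 := horb ω hωx
    have h2 : orbit (sylG G x₀ P₀) ω = {ω} := by
      ext y
      constructor
      · rintro ⟨a, rfl⟩
        exact hcon a.1 a.2
      · rintro rfl
        exact mem_orbit_self _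
    rw [h2] at h1
    simp at h1
    exact hp.one_lt.ne' h1.symm
  obtain ⟨a, haP, haω⟩ := hB3
  set Q := sylG G x₁ Q₀ with hQdef
  set P := sylG G x₀ P₀ with hPdef
  set F : Set α := fixedPoints Q α with hFdef
  have hF : ∀ y, y ∈ F ↔ ∀ q ∈ Q, q • y = y := by
    intro y
    constructor
    · intro h q hq; exact h ⟨q, hq⟩
    · intro h q; exact h q.1 q.2
  have hxF : ∀ i, x₁ i ∈ F := fun i => (hF _).mpr (fun q hq => hQfix q hq i)
  -- (B4)
  have hB4 : ∀ y, y ∉ F → ∀ b ∈ P, ∃ q ∈ Q, b • y = q • y := by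
    intro y hy b hb
    have hyx : y ∉ Set.range x₀ := by
      rintro ⟨i, rfl⟩; exact hy (hxF i.succ)
    have hsub : orbit Q y ⊆ orbit P y := by
      rintro _ ⟨q, rfl⟩
      exact ⟨⟨q.1, hQP q.1 q.2⟩, rfl⟩
    obtain ⟨e, he⟩ := hQpg.card_orbit y
    have he0 : e ≠ 0 := by
      rintro rfl
      rw [pow_zero] at he
      apply hy
      rw [hF]
      intro q hq
      have hsubs : Subsingleton (orbit Q y) := (Nat.card_eq_one_iff_unique.mp he).1
      have h1 : (⟨q • y, ⟨⟨q, hq⟩, rfl⟩⟩ : orbit Q y) = ⟨y, mem_orbit_self y⟩ :=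
        Subsingleton.elim _ _
      exact congrArg Subtype.val h1
    have hle : (orbit P y).ncard ≤ (orbit Q y).ncard := by
      rw [← Nat.card_coe_set_eq, ← Nat.card_coe_set_eq, horb y hyx, he]
      calc p = p ^ 1 := (pow_one p).symm
        _ ≤ p ^ e := Nat.pow_le_pow_right hp.pos (by omega)
    have heq := Set.eq_of_subset_of_ncard_le hsub hle (Set.toFinite _)
    have hmem : b • y ∈ orbit P y := ⟨⟨b, hb⟩, rfl⟩
    rw [← heq] at hmem
    obtain ⟨q, hq⟩ := hmem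
    exact ⟨q.1, q.2, hq.symm⟩
  -- (B5)
  have hB5 : ∃ k', Nat.card F = k' * p + r ∧ 1 ≤ k' ∧ k' < k := by
    have hmod := hQpg.card_modEq_card_fixedPoints α
    rw [Nat.card_eq_fintype_card, hn] at hmod
    have hge : r + 1 ≤ Nat.card F := by
      rw [Nat.card_coe_set_eq, ← ncard_range_emb x₁]
      exact Set.ncard_le_ncard (Set.range_subset_iff.mpr hxF) (Set.toFinite _)
    have hlt : Nat.card F < k * p + r := by
      have hex : ∃ y : α, g₀ • y ≠ y := by
        by_contra hcon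
        push Not at hcon
        apply hg1
        apply Subtype.ext
        apply Equiv.ext
        intro y
        exact hcon y
      obtain ⟨y, hy⟩ := hex
      have hyF : y ∈ Fᶜ := fun h => hy ((hF y).mp h g₀ hg₀Q)
      have h1 := Set.ncard_add_ncard_compl F
      have h2 : 0 < (Fᶜ).ncard := (Set.ncard_pos (Set.toFinite _)).mpr ⟨y, hyF⟩
      rw [Nat.card_eq_fintype_card, hn] at h1
      rw [Nat.card_coe_set_eq]
      omega
    have hdvd : p ∣ (k * p + r) - Nat.card F := (Nat.modEq_iff_dvd' hlt.le).mp hmod.symm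
    obtain ⟨d, hd⟩ := hdvd
    have hd1 : 1 ≤ d := by
      rcases Nat.eq_zero_or_pos d with rfl | h
      · rw [mul_zero] at hd; omega
      · exact h
    have hdk : d < k := by
      by_contra hcon
      push Not at hcon
      have : p * k ≤ p * d := Nat.mul_le_mul_left p hcon
      have h3 : k * p = p * k := mul_comm k p
      omega
    obtain ⟨c, rfl⟩ := Nat.exists_eq_add_of_lt hdk
    refine ⟨c + 1, ?_, by omega, by omega⟩
    have h4 : (d + c + 1) * p = p * d + (c + 1) * p := by ring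
    rw [h4] at hd hlt
    generalize p * d = pd at hd hlt
    generalize (c + 1) * p = cp at hd hlt ⊢
    omega
  obtain ⟨k', hk'f, hk'1, hk'k⟩ := hB5
  -- induction
  set N : Subgroup G := Subgroup.normalizer (Q : Set G) with hNdef
  have hNF : ∀ g ∈ N, ∀ y, g • y ∈ F ↔ y ∈ F := by
    intro g hg y
    constructor
    · intro h
      have := normalizer_fix Q g⁻¹ (N.inv_mem hg) _ h
      rwa [inv_smul_smul] at this
    · intro h; exact normalizer_fix Q g hg y h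
  have hcardF : Fintype.card F = k' * p + r := by
    rw [← Nat.card_eq_fintype_card]; exact hk'f
  have htrans : IsMultiplyPretransitive (resGroup N F) F (r + 1) := by
    refine ⟨fun a' b' => ?_⟩
    obtain ⟨g, hgN, hgab⟩ := Cfsg.Agent.S4219.result hG x₁ Q₀
      (a'.trans (Function.Embedding.subtype _)) (b'.trans (Function.Embedding.subtype _))
      (fun i => (a' i).2) (fun i => (b' i).2)
    refine ⟨⟨(g : Equiv.Perm α).subtypePerm (hNF g hgN), ⟨g, hgN, fun y => rfl⟩⟩, ?_⟩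
    ext i
    have := DFunLike.congr_fun hgab i
    exact this
  have hAlt := IH k' hk'k F (resGroup N F) hcardF hk'1 htrans
  -- three points of `Δ`
  have hinj : ∀ i j : Fin r, i ≠ j → x₀ i ≠ x₀ j := fun i j h => x₀.injective.ne h
  set y₀ : α := x₀ ⟨0, by omega⟩ with hy₀
  set u : α := x₀ ⟨1, by omega⟩ with hu
  set v : α := x₀ ⟨2, by omega⟩ with hv
  have hy₀u : y₀ ≠ u := hinj _ _ (by simp [Fin.ext_iff])
  have hy₀v : y₀ ≠ v := hinj _ _ (by simp [Fin.ext_iff])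
  have huv : u ≠ v := hinj _ _ (by simp [Fin.ext_iff])
  have hωy₀ : ω ≠ y₀ := fun h => hωx ⟨_, h.symm⟩
  have hωu : ω ≠ u := fun h => hωx ⟨_, h.symm⟩
  have hωv : ω ≠ v := fun h => hωx ⟨_, h.symm⟩
  have hωF : ω ∈ F := hxF 0
  have hy₀F : y₀ ∈ F := hxF _
  have huF : u ∈ F := hxF _
  have hvF : v ∈ F := hxF _
  have hτ : (Equiv.swap (⟨ω, hωF⟩ : F) ⟨y₀, hy₀F⟩ * Equiv.swap (⟨u, huF⟩ : F) ⟨v, hvF⟩) ∈
      alternatingGroup F :=
    Equiv.Perm.mul_mem_alternatingGroup_of_isSwap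
      ⟨_, _, fun h => hωy₀ (congrArg Subtype.val h), rfl⟩
      ⟨_, _, fun h => huv (congrArg Subtype.val h), rfl⟩
  obtain ⟨g, hgN, hg⟩ := hAlt hτ
  set τ' : Equiv.Perm α := Equiv.swap ω y₀ * Equiv.swap u v with hτ'
  have hg' : ∀ y, y ∈ F → g • y = τ' y := by
    intro y hy
    have := hg ⟨y, hy⟩
    rw [this, Equiv.Perm.mul_apply, coe_swap_subtype, coe_swap_subtype]
    rfl
  have hτsupp : ∀ y, τ' y ≠ y → y ∈ F := by
    intro y hy
    by_contra hyF
    apply hy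
    have h1 : y ≠ ω := fun h => hyF (h ▸ hωF)
    have h2 : y ≠ y₀ := fun h => hyF (h ▸ hy₀F)
    have h3 : y ≠ u := fun h => hyF (h ▸ huF)
    have h4 : y ≠ v := fun h => hyF (h ▸ hvF)
    rw [hτ', Equiv.Perm.mul_apply, Equiv.swap_apply_of_ne_of_ne h3 h4,
      Equiv.swap_apply_of_ne_of_ne h1 h2]
  have hτF := perm_mem_iff_of_support τ' F hτsupp
  have hτF' : ∀ y, τ'⁻¹ y ∈ F ↔ y ∈ F := by
    intro y
    have := hτF (τ'⁻¹ y)
    rw [perm_apply_inv] at this
    exact this.symm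
  have haF : ∀ b ∈ P, ∀ y ∈ F, b • y ∈ F := by
    intro b hb y hy
    rw [hF]
    intro q hq
    have hc := hcomm b hb q (hQP q hq)
    rw [← mul_smul, ← hc, mul_smul, (hF y).mp hy q hq]
  have hginv : ∀ y, y ∈ F → g⁻¹ • y = τ'⁻¹ y := by
    intro y hy
    rw [inv_smul_eq_iff, hg' _ ((hτF' y).mpr hy), perm_apply_inv]
  set z : G := a⁻¹ * (g * a * g⁻¹) with hz
  set t : Equiv.Perm α := Equiv.swap (a⁻¹ • ω) y₀ * Equiv.swap ω y₀ with ht
  -- (Z1)
  have hZ1 : ∀ q ∈ Q, Commute z q := by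
    intro q hq
    have hc1 : Commute a q := hcomm a haP q (hQP q hq)
    have hc2 : Commute (g * a * g⁻¹) q := by
      have hq' : g⁻¹ * q * g ∈ Q := by
        have := (Subgroup.mem_normalizer_iff.mp (N.inv_mem hgN) q).mp hq
        simpa using this
      have hc3 : Commute a (g⁻¹ * q * g) := hcomm a haP _ (hQP _ hq')
      have := (Commute.conj_iff g).mpr hc3
      have e : g * (g⁻¹ * q * g) * g⁻¹ = q := by group
      rwa [e] at this
    exact (hc1.inv_left).mul_left hc2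
  -- (Z2)
  have hZ2 : ∀ y, y ∉ F → ∃ q ∈ Q, z • y = q • y := by
    intro y hy
    have hy1 : g⁻¹ • y ∉ F := fun h => hy ((hNF g⁻¹ (N.inv_mem hgN) y).mp h)
    obtain ⟨q1, hq1, e1⟩ := hB4 _ hy1 a haP
    have hq1' : g * q1 * g⁻¹ ∈ Q := (Subgroup.mem_normalizer_iff.mp hgN q1).mp hq1
    have hy2 : (g * q1 * g⁻¹) • y ∉ F := by
      intro h
      have h1 := (hF _).mp h (g * q1 * g⁻¹)⁻¹ (Q.inv_mem hq1')
      rw [inv_smul_smul] at h1
      rw [← h1] at h
      exact hy h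
    obtain ⟨q2, hq2, e2⟩ := hB4 _ hy2 a⁻¹ (P.inv_mem haP)
    refine ⟨q2 * (g * q1 * g⁻¹), Q.mul_mem hq2 hq1', ?_⟩
    calc z • y = a⁻¹ • (g • (a • (g⁻¹ • y))) := by simp only [hz, mul_smul]
      _ = a⁻¹ • (g • (q1 • (g⁻¹ • y))) := by rw [e1]
      _ = a⁻¹ • ((g * q1 * g⁻¹) • y) := by simp only [mul_smul]
      _ = q2 • ((g * q1 * g⁻¹) • y) := e2
      _ = (q2 * (g * q1 * g⁻¹)) • y := (mul_smul _ _ _).symm
  -- (Z3)
  have hainv : ∀ i, a⁻¹ • x₀ i = x₀ i := fun i => hPfix a⁻¹ (P.inv_mem haP) i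
  have hperm : ((a⁻¹ : G) : Equiv.Perm α) * τ' * ((a⁻¹ : G) : Equiv.Perm α)⁻¹ * τ'⁻¹ = t := by
    have h1 := Equiv.swap_apply_apply ((a⁻¹ : G) : Equiv.Perm α) ω y₀
    have h2 := Equiv.swap_apply_apply ((a⁻¹ : G) : Equiv.Perm α) u v
    have e0 : ((a⁻¹ : G) : Equiv.Perm α) y₀ = y₀ := hainv _
    have e1 : ((a⁻¹ : G) : Equiv.Perm α) u = u := hainv _
    have e2 : ((a⁻¹ : G) : Equiv.Perm α) v = v := hainv _
    rw [e0] at h1
    rw [e1, e2] at h2
    have e3 : ((a⁻¹ : G) : Equiv.Perm α) ω = a⁻¹ • ω := rfl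
    rw [e3] at h1
    calc ((a⁻¹ : G) : Equiv.Perm α) * τ' * ((a⁻¹ : G) : Equiv.Perm α)⁻¹ * τ'⁻¹
        = (((a⁻¹ : G) : Equiv.Perm α) * Equiv.swap ω y₀ * ((a⁻¹ : G) : Equiv.Perm α)⁻¹) *
          (((a⁻¹ : G) : Equiv.Perm α) * Equiv.swap u v * ((a⁻¹ : G) : Equiv.Perm α)⁻¹) * τ'⁻¹ := by
          rw [hτ']; group
      _ = Equiv.swap (a⁻¹ • ω) y₀ * Equiv.swap u v * (Equiv.swap u v * Equiv.swap ω y₀) := by
          rw [← h1, ← h2, hτ', mul_inv_rev, Equiv.swap_inv, Equiv.swap_inv]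
      _ = t := by
          rw [mul_assoc, ← mul_assoc (Equiv.swap u v), Equiv.swap_mul_self, one_mul]
  have hZ3 : ∀ y, y ∈ F → z • y = t y := by
    intro y hy
    have h1 : z • y = a⁻¹ • (g • (a • (g⁻¹ • y))) := by simp only [hz, mul_smul]
    rw [h1, hginv y hy, hg' _ (haF a haP _ ((hτF' y).mpr hy)), ← hperm]
    simp [smul_eq_coe]
  have haωF : a⁻¹ • ω ∈ F := haF a⁻¹ (P.inv_mem haP) ω hωF
  have htsupp : ∀ y, t y ≠ y → y ∈ F := by
    intro y hy
    by_contra hyF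
    apply hy
    have h1 : y ≠ ω := fun h => hyF (h ▸ hωF)
    have h2 : y ≠ y₀ := fun h => hyF (h ▸ hy₀F)
    have h3 : y ≠ a⁻¹ • ω := fun h => hyF (h ▸ haωF)
    rw [ht, Equiv.Perm.mul_apply, Equiv.swap_apply_of_ne_of_ne h1 h2,
      Equiv.swap_apply_of_ne_of_ne h3 h2]
  have htF := perm_mem_iff_of_support t F htsupp
  have hpowF : ∀ j : ℕ, ∀ y, y ∈ F → z ^ j • y = (t ^ j) y ∧ (t ^ j) y ∈ F := by
    intro j
    induction j with
    | zero => intro y hy; simpa using hy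
    | succ j ih =>
      intro y hy
      obtain ⟨e1, e2⟩ := ih y hy
      rw [pow_succ', mul_smul, e1, hZ3 _ e2, pow_succ', Equiv.Perm.mul_apply]
      exact ⟨rfl, (htF _).mpr e2⟩
  have hw : ((z ^ p : G) : Equiv.Perm α) = t ^ p := by
    apply Equiv.ext
    intro y
    by_cases hy : y ∈ F
    · exact (hpowF p y hy).1
    · obtain ⟨q, hq, e⟩ := hZ2 y hy
      have h1 := pow_smul_eq_of_commute z q (hZ1 q hq) y e p
      rw [hexp q (hQP q hq), one_smul] at h1
      have h2 : (t ^ p) y = y := by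
        apply Equiv.Perm.pow_apply_eq_self_of_apply_eq_self
        by_contra h
        exact hy (htsupp y h)
      rw [h2]; exact h1
  have ht3 : t.IsThreeCycle := by
    have e : t = Equiv.swap y₀ (a⁻¹ • ω) * Equiv.swap y₀ ω := by
      rw [ht, Equiv.swap_comm (a⁻¹ • ω) y₀, Equiv.swap_comm ω y₀]
    rw [e]
    refine Equiv.Perm.isThreeCycle_swap_mul_swap_same ?_ hωy₀.symm ?_
    · intro h
      have h1 : a • y₀ = ω := by rw [h, smul_inv_smul]
      rw [hPfix a haP] at h1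
      exact hωy₀ h1.symm
    · intro h
      exact haω (inv_smul_eq_iff.mp h).symm
  have hw1 : z ^ p ≠ 1 := by
    intro h
    have h1 : t ^ p = 1 := by rw [← hw, h]; rfl
    have h2 := orderOf_dvd_of_pow_eq_one h1
    rw [ht3.orderOf] at h2
    exact hp3 ((Nat.prime_dvd_prime_iff_eq Nat.prime_three hp).mp h2).symm
  have hsupp : ((z ^ p : G) : Equiv.Perm α).support.card < 2 * r := by
    rw [hw]
    have h1 := Finset.card_le_card (Equiv.Perm.support_pow_le t p)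
    rw [ht3.card_support] at h1
    omega
  exact alt_le_of_support G hr hn1 hG (z ^ p) hw1 hsupp

end Cfsg.Agent.Lib.Helper21.MTCaseB
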