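import Mathlib
import Cfsg.Agent.Lib.Helper21.MTSharp
import Cfsg.Agent.Lib.Helper21.MTCaseB

set_option autoImplicit false

namespace Cfsg.Agent.Lib.Helper21.MTMain

open MulAction Cfsg.Agent.Lib.Helper21.MTSharp Cfsg.Agent.Lib.Helper21.MTCaseB

universe u

/-- The main induction for the `kp + r` theorem, modulo the order-`p` Sylow case `caseA`. -/
theorem main_of_caseA {p : ℕ} (hp : p.Prime)
    (caseA : ∀ (α : Type u) [Fintype α] [DecidableEq α] (G : Subgroup (Equiv.Perm α)) (k r : ℕ),
      Fintype.card α = k * p + r → 1 ≤ k → k < p → k < r → 3 ≤ r → p ≠ 3 → (r < p ∨ 5 ≤ r) →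
      IsMultiplyPretransitive G α (r + 1) →
      (∀ g : G, g ≠ 1 → g ^ p = 1 → ∀ x : Fin (r + 1) ↪ α, g ∉ stabilizer G x) →
      alternatingGroup α ≤ G) :
    ∀ (k : ℕ) (α : Type u) [Fintype α] [DecidableEq α] (G : Subgroup (Equiv.Perm α)) (r : ℕ),
      Fintype.card α = k * p + r → 1 ≤ k → k < p → k < r → 3 ≤ r →
      IsMultiplyPretransitive G α (r + 1) → alternatingGroup α ≤ G := by
  intro k
  induction k using Nat.strong_induction_on with
  | _ k ih =>
    intro α _ _ G r hn hk hkp hkr hr hG
    have hkp1 : 1 ≤ k * p := Nat.mul_pos hk hp.pos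
    by_cases hsmall : k * p ≤ 2 * r
    · refine small_case G hr (by omega) (by omega) ?_ hG
      intro h8
      have hk8 : k * p = 8 := by omega
      have hdvd : p ∣ 2 ^ 3 := ⟨k, by rw [mul_comm]; omega⟩
      have hp2 : p = 2 := ((Nat.prime_dvd_prime_iff_eq hp Nat.prime_two).mp
        (hp.dvd_of_dvd_pow hdvd))
      subst hp2
      omega
    · push Not at hsmall
      have hp5 : 5 ≤ p := by
        by_contra hcon
        push Not at hcon
        have h2 := hp.two_le
        interval_cases p
        · omega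
        · omega
        · exact absurd hp (by norm_num)
      by_cases H1 : ∀ g : G, g ≠ 1 → g ^ p = 1 → ∀ x : Fin (r + 1) ↪ α, g ∉ stabilizer G x
      · exact caseA α G k r hn hk hkp hkr hr (by omega) (by omega) hG H1
      · push Not at H1
        obtain ⟨g₀, hg1, hgp, x₁, hx₁⟩ := H1
        exact case_B G hp hn hk hkp hkr hr (by omega) hG
          (fun k' hk' β _ _ G' hn' hk'1 hG' =>
            ih k' hk' β G' r hn' hk'1 (by omega) (by omega) hr hG') g₀ hg1 hgp x₁ hx₁

end Cfsg.Agent.Lib.Helper21.MTMain
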